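import Cfsg.Agent.SympUnip.Count
import Cfsg.Agent.GraphForms.Symm

/-! Unipotent isometries of alternating spaces: levels and discriminants (owner: helper23). -/

set_option autoImplicit false
set_option linter.unusedSectionVars false
set_option linter.style.haveILetI false

namespace Cfsg.Agent.SpClassCount

open Module Matrix
open LinearMap (BilinForm)
open Cfsg.Agent.SympUnip

variable {F : Type*} [Field F] {W W' : Type*} [AddCommGroup W] [Module F W] [FiniteDimensional F W]
  [AddCommGroup W'] [Module F W'] [FiniteDimensional F W']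

theorem exists_cayN (h2 : (2 : F) ≠ 0) {N : ℕ} {β : BilinForm F W} {f : Module.End F W}
    (hB : ∀ u v, β (f u) (f v) = β u v) (hf : (f - 1) ^ N = 0) :
    ∃ C, IsCay f C ∧ IsSkew β C ∧ C ^ N = 0 ∧ IsUnit (f + 1) ∧ Commute C (f + 1) := by
  have hn : IsNilpotent ((2 : F)⁻¹ • (f - 1)) := ⟨N, by rw [smul_pow, hf, smul_zero]⟩
  have e : f + 1 = (2 : F) • ((2 : F)⁻¹ • (f - 1) + 1) := by
    rw [smul_add, smul_smul, mul_inv_cancel₀ h2, one_smul, two_smul]
    abel
  have hunit : IsUnit (f + 1) := e ▸ SympUnip.isUnit_smul h2 hn.isUnit_add_one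
  obtain ⟨u, hu⟩ := hunit
  have hc : Commute (f - 1) (↑u⁻¹ : Module.End F W) := by
    apply Commute.units_inv_right
    rw [hu]
    exact Commute.sub_left ((Commute.refl f).add_right (Commute.one_right f)) (Commute.one_left _)
  refine ⟨(f - 1) * ↑u⁻¹, ?_, fun x y => ?_, by rw [hc.mul_pow, hf, zero_mul], ⟨u, hu⟩, ?_⟩
  · unfold IsCay
    rw [← hu, mul_assoc, Units.inv_mul, mul_one]
  · have hx : x = (f + 1) ((↑u⁻¹ : Module.End F W) x) := by
      rw [← hu, ← Module.End.mul_apply, Units.mul_inv, Module.End.one_apply]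
    have hy : y = (f + 1) ((↑u⁻¹ : Module.End F W) y) := by
      rw [← hu, ← Module.End.mul_apply, Units.mul_inv, Module.End.one_apply]
    conv_lhs => rw [hy]
    conv_rhs => rw [hx]
    simp only [Module.End.mul_apply, LinearMap.sub_apply, LinearMap.add_apply,
      Module.End.one_apply, map_add, map_sub, hB]
    ring
  · show (f - 1) * ↑u⁻¹ * (f + 1) = (f + 1) * ((f - 1) * ↑u⁻¹)
    rw [← hu, mul_assoc, Units.inv_mul, ← mul_assoc, hu]
    have : (f + 1) * (f - 1) = (f - 1) * (f + 1) :=
      ((Commute.sub_left ((Commute.refl f).add_right (Commute.one_right f)) (Commute.one_left _))).eq.symm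
    rw [this, mul_assoc, ← hu, Units.mul_inv]

theorem cay_key {X : Type*} [AddCommGroup X] [Module F X] {g D : Module.End F X} (h : IsCay g D) (w : X) :
    g w - D (g w) = w + D w := by
  have := LinearMap.congr_fun (exists_eq_mul_inv_of_isCay h) w
  simp only [LinearMap.add_apply, Module.End.mul_apply, LinearMap.sub_apply, Module.End.one_apply] at this
  rw [eq_sub_iff_add_eq] at this
  exact sub_eq_iff_eq_add.2 (this.symm.trans (by abel))

/-- The chains of a unipotent isometry. -/
structure UData (β : BilinForm F W) (f : Module.End F W) (N : ℕ) where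
  ι : Type
  fι : Fintype ι
  dι : DecidableEq ι
  k : ι → ℕ
  H : Matrix ι ι F
  x : ι → W
  C : Module.End F W
  cay : IsCay f C
  unit : IsUnit (f + 1)
  comm : Commute C (f + 1)
  skew : IsSkew β C
  nil : C ^ N = 0
  datum : Datum k H
  chain : Chain β C k H x
  span : Submodule.span F (Set.range (vecs C k x)) = ⊤

attribute [instance] UData.fι UData.dι

theorem exists_udata (h2 : (2 : F) ≠ 0) {N : ℕ} {β : BilinForm F W} (hA : β.IsAlt) (hβ : β.Nondegenerate)
    {f : Module.End F W} (hB : ∀ u v, β (f u) (f v) = β u v) (hf : (f - 1) ^ N = 0) :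
    Nonempty (UData β f N) := by
  classical
  obtain ⟨C, hC, hS, hCN, hu, hcm⟩ := exists_cayN h2 hB hf
  obtain ⟨ι, inst, k, H, x, -, -, hD, hx, hs⟩ := hasChain hA hβ hS h2 hCN
  exact ⟨⟨ι, inst, inferInstance, k, H, x, C, hC, hu, hcm, hS, hCN, hD, hx, hs⟩⟩

namespace UData

variable {β : BilinForm F W} {f : Module.End F W} {N : ℕ} (U : UData β f N)

/-- The number of chains of a length. -/
def lev (K : ℕ) : ℕ := Fintype.card (Fib U.k K)

/-- The discriminant class of a level. -/
noncomputable def disc (K : ℕ) : Bool := by classical exact !decide (IsSquare (blk U.k U.H K).det)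

theorem disc_of_lev {K : ℕ} (h : U.lev K = 0) : U.disc K = false := by
  classical
  haveI : IsEmpty (Fib U.k K) := Fintype.card_eq_zero_iff.1 h
  simp [disc, Matrix.det_isEmpty]

theorem finrank_ker_pow (j : ℕ) :
    finrank F (LinearMap.ker ((f - 1) ^ j)) = ∑ a, min j (U.k a) := by
  classical
  have hker : LinearMap.ker ((f - 1) ^ j) = LinearMap.ker (U.C ^ j) := by
    have e : (f - 1) ^ j = (f + 1) ^ j * U.C ^ j := by
      rw [← U.comm.symm.mul_pow]
      congr 1
      rw [← U.comm.eq]
      exact U.cay.symm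
    rw [e]
    exact LinearMap.ker_comp_of_ker_eq_bot _
      (LinearMap.ker_eq_bot.2 ((Module.End.isUnit_iff _).1 (U.unit.pow j)).1)
  rw [hker]
  let b := Module.Basis.mk (U.chain.linearIndependent U.datum) U.span.ge
  have hdim : finrank F W = ∑ a, U.k a := by
    rw [Module.finrank_eq_card_basis b, Fintype.card_sigma]
    simp
  let big := {u : Idx U.k // j ≤ (u.2 : ℕ)}
  have hrange : LinearMap.range (U.C ^ j) = Submodule.span F (Set.range fun u : big => vecs U.C U.k U.x u.1) := by
    refine le_antisymm ?_ (Submodule.span_le.2 ?_)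
    · rw [LinearMap.range_eq_map, ← U.span, Submodule.map_span, Submodule.span_le]
      rintro _ ⟨_, ⟨⟨a, i⟩, rfl⟩, rfl⟩
      rw [SetLike.mem_coe, vecs, ← pow_add_apply]
      by_cases h : j + (i : ℕ) < U.k a
      · exact Submodule.subset_span ⟨⟨⟨a, ⟨j + (i : ℕ), h⟩⟩, Nat.le_add_right _ _⟩, rfl⟩
      · rw [SympUnip.pow_eq_zero_of_le (U.chain.nil a) (by dsimp only; omega)]
        exact zero_mem _
    · rintro _ ⟨⟨⟨a, i⟩, hi⟩, rfl⟩
      obtain ⟨r, hr⟩ := Nat.exists_eq_add_of_le hi
      exact ⟨(U.C ^ r) (U.x a), by simp only [vecs]; rw [← pow_add_apply, ← hr]⟩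
  have hr : finrank F (LinearMap.range (U.C ^ j)) = ∑ a, (U.k a - j) := by
    rw [hrange, finrank_span_eq_card (R := F) (b := fun u : big => vecs U.C U.k U.x u.1)
      ((U.chain.linearIndependent U.datum).comp _ Subtype.val_injective),
      Fintype.card_congr (β := (a : U.ι) × {i : Fin (U.k a) // j ≤ (i : ℕ)}) ⟨fun u => ⟨u.1.1, ⟨u.1.2, u.2⟩⟩, fun t => ⟨⟨t.1, t.2.1⟩, t.2.2⟩, fun _ => rfl, fun _ => rfl⟩, Fintype.card_sigma]
    refine Finset.sum_congr rfl fun a _ => ?_
    refine (Fintype.card_congr ⟨fun i : {i : Fin (U.k a) // j ≤ (i : ℕ)} => (⟨(i.1 : ℕ) - j, by have := i.1.2; have := i.2; omega⟩ : Fin (U.k a - j)),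
      fun t => ⟨⟨(t : ℕ) + j, by omega⟩, Nat.le_add_left _ _⟩, fun i => ?_, fun t => ?_⟩).trans (Fintype.card_fin _)
    · have := i.2
      ext; simp only; omega
    · ext; simp
  have h := LinearMap.finrank_range_add_finrank_ker (U.C ^ j)
  rw [hr, hdim] at h
  have hs : (∑ a, (U.k a - j)) + ∑ a, min j (U.k a) = ∑ a, U.k a := by
    rw [← Finset.sum_add_distrib]
    exact Finset.sum_congr rfl fun a _ => by omega
  omega

theorem lev_odd (h2 : (2 : F) ≠ 0) (hA : β.IsAlt) {K : ℕ} (hK : Odd K) : Even (U.lev K) := by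
  have ht : (blk U.k U.H K)ᵀ = -(blk U.k U.H K) := by
    rw [U.chain.blk_transpose hA U.skew U.datum K, hK.neg_one_pow, neg_one_smul]
  exact (exists_congr_alt h2 ht ht (U.datum.blk_det_ne_zero K) (U.datum.blk_det_ne_zero K)).1

variable {β' : BilinForm F W'} {f' : Module.End F W'} (U' : UData β' f' N)

/-- Equal levels and discriminants give an intertwining isometry. -/
theorem exists_iso [Finite F] (h2 : (2 : F) ≠ 0) (hA : β.IsAlt) (hA' : β'.IsAlt)
    (hlev : ∀ K, U.lev K = U'.lev K) (hdisc : ∀ K, Even K → U.disc K = U'.disc K) :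
    ∃ E : W ≃ₗ[F] W', (∀ v, E (f v) = f' (E v)) ∧ ∀ u v, β' (E u) (E v) = β u v := by
  classical
  have hP : ∀ K, ∃ P : Matrix (Fib U.k K) (Fib U'.k K) F, Pᵀ * blk U.k U.H K * P = blk U'.k U'.H K := by
    intro K
    let e := Fintype.equivOfCardEq (hlev K)
    set B' := (blk U'.k U'.H K).submatrix e e with hB'
    suffices hh : ∃ P₀ : Matrix (Fib U.k K) (Fib U.k K) F, P₀ᵀ * blk U.k U.H K * P₀ = B' by
      obtain ⟨P₀, hP₀⟩ := hh
      refine ⟨P₀.submatrix id e.symm, ?_⟩
      rw [transpose_submatrix, ← Equiv.coe_refl,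
        ← submatrix_id_id (blk U.k U.H K), ← Equiv.coe_refl, submatrix_mul_equiv, submatrix_mul_equiv,
        hP₀, hB', submatrix_submatrix]
      simp
    have hBd : B'.det ≠ 0 := by
      rw [hB', det_submatrix_equiv_self]
      exact U'.datum.blk_det_ne_zero K
    have hBt : B'ᵀ = ((-1 : F) ^ K) • B' := by
      rw [hB', transpose_submatrix, U'.chain.blk_transpose hA' U'.skew U'.datum K]
      rfl
    rcases Nat.even_or_odd K with hK | hK
    · have hAt : (blk U.k U.H K)ᵀ = blk U.k U.H K := by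
        rw [U.chain.blk_transpose hA U.skew U.datum K, hK.neg_one_pow, one_smul]
      have hBt' : B'ᵀ = B' := by rw [hBt, hK.neg_one_pow, one_smul]
      obtain ⟨P, hP⟩ := GraphForms.exists_congr_of_isSquare h2 hBt' hAt hBd (U.datum.blk_det_ne_zero K)
        (by
          rw [hB', det_submatrix_equiv_self]
          have hd := hdisc K hK
          simp only [disc, Bool.not_inj_iff, decide_eq_decide] at hd
          by_cases hs : IsSquare (blk U.k U.H K).det
          · exact (hd.1 hs).mul hs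
          · exact isSquare_mul_of_not h2 (fun hc => hs (hd.2 hc)) hs)
      exact ⟨P, hP⟩
    · obtain ⟨-, P, hP⟩ := exists_congr_alt h2
        (show (blk U.k U.H K)ᵀ = -(blk U.k U.H K) by
          rw [U.chain.blk_transpose hA U.skew U.datum K, hK.neg_one_pow, neg_one_smul])
        (show B'ᵀ = -B' by rw [hBt, hK.neg_one_pow, neg_one_smul]) (U.datum.blk_det_ne_zero K) hBd
      exact ⟨P, hP⟩
  obtain ⟨x, hx, hs⟩ := exists_change U.datum U.chain U.span U'.datum hlev hP
  obtain ⟨E, hEC, hE⟩ := exists_iso_of_chains U'.datum hx hs U'.chain U'.span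
  refine ⟨E, fun v => ?_, hE⟩
  have hu : IsUnit (1 - U'.C) := IsNilpotent.isUnit_one_sub ⟨N, U'.nil⟩
  apply ((Module.End.isUnit_iff _).1 hu).1
  simp only [LinearMap.sub_apply, Module.End.one_apply]
  rw [← hEC, ← map_sub E, cay_key U.cay v, cay_key U'.cay (E v), map_add, hEC]

end UData

end Cfsg.Agent.SpClassCount
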