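import Cfsg.Agent.SUClassCount.Main
import Cfsg.Agent.ClassConj.KerDecomp
import Cfsg.Agent.SympUnip.Count
import Cfsg.Agent.OrderBound.SelfDual

/-! The elementary divisors of a symplectic matrix (owner: helper23). -/

set_option autoImplicit false
set_option linter.style.haveILetI false
set_option linter.unusedSectionVars false

namespace Cfsg.Agent.SpClassCount

open Polynomial Module
open LinearMap (BilinForm)
open Cfsg.Agent.SympUnip (spEnd)

universe u

theorem card_filter_eq_of_min {ι : Type*} (s : Finset ι) (k : ι → ℕ) {K : ℕ} (hK : 1 ≤ K) :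
    (s.filter (fun i => k i = K)).card + (∑ i ∈ s, min (K - 1) (k i)) + ∑ i ∈ s, min (K + 1) (k i) =
      2 * ∑ i ∈ s, min K (k i) := by
  rw [Finset.card_filter, Finset.mul_sum, ← Finset.sum_add_distrib, ← Finset.sum_add_distrib]
  refine Finset.sum_congr rfl fun i _ => ?_
  split_ifs <;> omega

theorem count_eq_of_min {ι κ : Type*} (s : Finset ι) (k : ι → ℕ) (t : Finset κ) (l : κ → ℕ)
    (h : ∀ m, ∑ i ∈ s, min m (k i) = ∑ i ∈ t, min m (l i)) {K : ℕ} (hK : 1 ≤ K) :
    (s.filter (fun i => k i = K)).card = (t.filter (fun i => l i = K)).card := by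
  have h1 := card_filter_eq_of_min s k hK
  have h2 := card_filter_eq_of_min t l hK
  rw [h, h, h] at h1
  omega

variable {F : Type u} [Field F]

section adjoint

variable {V : Type*} [AddCommGroup V] [Module F V] [FiniteDimensional F V]

/-- The kernel of a polynomial at an isometry and of its reciprocal. -/
theorem finrank_ker_rv {β : BilinForm F V} (hβ : β.Nondegenerate) (T : V ≃ₗ[F] V)
    (hT : ∀ x y, β (T x) (T y) = β x y) {f : F[X]} (hf : f ≠ 0) :
    finrank F (LinearMap.ker (aeval (T : Module.End F V) (OrderBound.rv f))) =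
      finrank F (LinearMap.ker (aeval (T : Module.End F V) f)) := by
  let u : (Module.End F V)ˣ := ⟨T, T.symm, LinearMap.ext T.apply_symm_apply, LinearMap.ext T.symm_apply_apply⟩
  have hadj : ∀ x y, β (aeval (T : Module.End F V) f x) y = β x (aeval (↑u⁻¹ : Module.End F V) f y) := by
    induction f using Polynomial.induction_on' with
    | add a b ha hb =>
      intro x y
      by_cases hab : a = 0 <;> by_cases hbb : b = 0
      · simp [hab, hbb]
      · simp only [hab, zero_add]; exact hb hbb x y
      · simp only [hbb, add_zero]; exact ha hab x y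
      · simp [ha hab x y, hb hbb x y]
    | monomial k c =>
      intro x y
      have hk : ∀ k x y, β (((T : Module.End F V) ^ k) x) y = β x (((↑u⁻¹ : Module.End F V) ^ k) y) := by
        intro k
        induction k with
        | zero => simp
        | succ k ih =>
          intro x y
          rw [pow_succ', pow_succ, Module.End.mul_apply, Module.End.mul_apply, ← ih]
          show β (T _) y = β _ (T.symm y)
          conv_lhs => rw [← T.apply_symm_apply y, hT]
      simp [aeval_monomial, Module.algebraMap_end_apply, hk]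
  have hker : LinearMap.ker (aeval (↑u⁻¹ : Module.End F V) f) =
      β.orthogonal (LinearMap.range (aeval (T : Module.End F V) f)) := by
    ext y
    rw [LinearMap.mem_ker, LinearMap.BilinForm.mem_orthogonal_iff]
    refine ⟨fun h => ?_, fun h => hβ.2 _ fun x => ?_⟩
    · rintro _ ⟨x, rfl⟩
      show β _ y = 0
      rw [hadj, h, map_zero]
    · rw [← hadj]
      exact h _ (LinearMap.mem_range_self _ x)
  have h1 := LinearMap.finrank_range_add_finrank_ker (aeval (T : Module.End F V) f)
  have h2 := LinearMap.BilinForm.finrank_orthogonal hβ (LinearMap.range (aeval (T : Module.End F V) f))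
  rw [← hker] at h2
  have e : LinearMap.ker (aeval (T : Module.End F V) (OrderBound.rv f)) =
      LinearMap.ker (aeval (↑u⁻¹ : Module.End F V) f) := by
    have hc : IsUnit (C (f.reverse.leadingCoeff)⁻¹) :=
      isUnit_C.2 (inv_ne_zero (leadingCoeff_ne_zero.2 (by rwa [Ne, reverse_eq_zero]))).isUnit
    have hunit : IsUnit ((u : Module.End F V) ^ f.natDegree) := (u.isUnit).pow _
    ext y
    rw [LinearMap.mem_ker, LinearMap.mem_ker, OrderBound.rv, mul_comm, map_mul, Module.End.mul_apply,
      map_eq_zero_iff _ ((Module.End.isUnit_iff _).1 (hc.map (aeval (T : Module.End F V)))).1,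
      show aeval (T : Module.End F V) f.reverse = aeval (u : Module.End F V) f.reverse from rfl,
      OrderBound.aeval_reverse, Module.End.mul_apply, map_eq_zero_iff _ ((Module.End.isUnit_iff _).1 hunit).1]
  rw [e]
  omega

end adjoint

variable [Fintype F] {n : ℕ}

/-- The space of `Sp_2n`. -/
abbrev Sp (F : Type u) [Field F] (n : ℕ) : Type u := ↥(Matrix.symplecticGroup (Fin n) F)

/-- An element as an automorphism. -/
noncomputable def spT (g : Sp F n) : (Fin n ⊕ Fin n → F) ≃ₗ[F] (Fin n ⊕ Fin n → F) :=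
  LinearEquiv.ofLinearMap (spEnd g) (spEnd g⁻¹)
    ((SympUnip.spEnd_mul _ _).symm.trans (by rw [mul_inv_cancel, SympUnip.spEnd_one]; rfl))
    ((SympUnip.spEnd_mul _ _).symm.trans (by rw [inv_mul_cancel, SympUnip.spEnd_one]; rfl))

@[simp] theorem spT_coe (g : Sp F n) : ((spT g : _ ≃ₗ[F] _) : Module.End F (Fin n ⊕ Fin n → F)) = spEnd g :=
  rfl

theorem spT_iso (g : Sp F n) (u v : Fin n ⊕ Fin n → F) :
    Forms.sympBil n F (spT g u) (spT g v) = Forms.sympBil n F u v := SympUnip.spEnd_iso g u v

/-- The reindexed matrix. -/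
noncomputable def glA (g : Sp F n) : GL (Fin (n + n)) F :=
  Units.map (Matrix.reindexAlgEquiv F F (finSumFinEquiv (m := n) (n := n))).toMulEquiv.toMonoidHom
    (Units.map (Matrix.symplecticGroup (Fin n) F).subtype (toUnits g))

/-- The reindexing of vectors. -/
def reix (F : Type u) [Field F] (n : ℕ) : (Fin (n + n) → F) ≃ₗ[F] (Fin n ⊕ Fin n → F) :=
  LinearEquiv.funCongrLeft F F finSumFinEquiv

theorem reix_mulVec (g : Sp F n) (v : Fin (n + n) → F) :
    reix F n ((glA g : Matrix (Fin (n + n)) (Fin (n + n)) F).mulVec v) = spEnd g (reix F n v) := by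
  funext a
  show Matrix.mulVec (Matrix.reindex finSumFinEquiv finSumFinEquiv (g : Matrix _ _ F)) v (finSumFinEquiv a) =
    Matrix.mulVec (g : Matrix _ _ F) (fun b => v (finSumFinEquiv b)) a
  rw [Matrix.reindex_apply, Matrix.submatrix_mulVec_equiv, Function.comp_apply, Equiv.symm_apply_apply]
  rfl

variable (g : Sp F n) (D : SUClassCount.Data (glA g : Matrix (Fin (n + n)) (Fin (n + n)) F))

/-- The indices of a divisor. -/
noncomputable def fib (Q : F[X]) : Finset D.ι := by
  classical exact Finset.univ.filter fun i => D.P i = Q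

/-- The multiplicity of a divisor with exponent `K`. -/
noncomputable def mlt (Q : F[X]) (K : ℕ) : ℕ := ((fib g D Q).filter fun i => D.e i = K).card

theorem kd_eq {Q : F[X]} (hQ : Q.Monic) (hQi : Irreducible Q) (k : ℕ) :
    finrank F (LinearMap.ker (aeval (spEnd g) (Q ^ k))) = Q.natDegree * ∑ i ∈ fib g D Q, min k (D.e i) := by
  classical
  have h := D.card_ker Q hQ hQi k
  let A := Matrix.toLinAlgEquiv' (glA g : Matrix (Fin (n + n)) (Fin (n + n)) F)
  have hint := ClassConj.aeval_intertwine (y := A) (y' := spEnd g) (reix F n).toLinearMap (reix_mulVec g) (Q ^ k)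
  have hA : ∀ v, aeval A (Q ^ k) v = (aeval (glA g : Matrix (Fin (n + n)) (Fin (n + n)) F) (Q ^ k)).mulVec v := by
    intro v
    rw [show A = Matrix.toLinAlgEquiv'.toAlgHom (glA g : Matrix (Fin (n + n)) (Fin (n + n)) F) from rfl, aeval_algHom_apply]
    exact Matrix.toLinAlgEquiv'_apply _ _
  let E : {v : Fin (n + n) → F // (aeval (glA g : Matrix (Fin (n + n)) (Fin (n + n)) F) (Q ^ k)).mulVec v = 0} ≃
      LinearMap.ker (aeval (spEnd g) (Q ^ k)) :=
    Equiv.subtypeEquiv (reix F n).toEquiv fun v => by
      rw [LinearMap.mem_ker, ← hA]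
      show _ ↔ aeval (spEnd g) (Q ^ k) ((reix F n).toLinearMap v) = 0
      rw [← hint, LinearEquiv.coe_coe, LinearEquiv.map_eq_zero_iff]
  rw [Nat.card_congr E] at h
  haveI := Fintype.ofFinite (LinearMap.ker (aeval (spEnd g) (Q ^ k)))
  rw [Nat.card_eq_fintype_card, Module.card_eq_pow_finrank (K := F)] at h
  refine (Nat.pow_right_injective Fintype.one_lt_card h).trans ?_
  congr 1

theorem e_le (i : D.ι) : D.e i ≤ n + n := by
  have h := Finset.single_le_sum (f := fun i => D.e i * (D.P i).natDegree) (fun _ _ => Nat.zero_le _)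
    (Finset.mem_univ i)
  rw [D.sum] at h
  exact le_trans (Nat.le_mul_of_pos_right _ (D.irr i).natDegree_pos) h

theorem mlt_rv {Q : F[X]} (hQ : Q.Monic) (hQi : Irreducible Q) (h0 : Q.coeff 0 ≠ 0) {K : ℕ} (hK : 1 ≤ K) :
    mlt g D (OrderBound.rv Q) K = mlt g D Q K := by
  refine count_eq_of_min _ _ _ _ (fun m => ?_) hK
  have hpow : OrderBound.rv (Q ^ m) = OrderBound.rv Q ^ m := by
    induction m with
    | zero => rw [pow_zero, pow_zero, OrderBound.rv_one]
    | succ m ih => rw [pow_succ, pow_succ, OrderBound.rv_mul, ih]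
  have h1 := kd_eq g D (OrderBound.rv_monic hQ.ne_zero) (OrderBound.irreducible_rv hQ hQi h0) m
  rw [← hpow, ← spT_coe, finrank_ker_rv Forms.sympBil_nondegenerate (spT g) (spT_iso g)
    (pow_ne_zero m hQ.ne_zero), spT_coe, kd_eq g D hQ hQi, OrderBound.natDegree_rv h0] at h1
  exact (Nat.eq_of_mul_eq_mul_left hQi.natDegree_pos h1).symm

/-- The product of the divisors with exponent `j`. -/
noncomputable def layer (j : ℕ) : F[X] := by
  classical exact ∏ i ∈ Finset.univ.filter (fun i => D.e i = j), D.P i

theorem layer_monic (j : ℕ) : (layer g D j).Monic := monic_prod_of_monic _ _ fun i _ => D.monic i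

theorem layer_coeff0 (j : ℕ) : (layer g D j).coeff 0 ≠ 0 := by
  rw [layer, coeff_zero_prod, Finset.prod_ne_zero_iff]
  exact fun i _ => D.coeff0 i

theorem mlt_eq_count [DecidableEq F[X]] (Q : F[X]) (j : ℕ) :
    mlt g D Q j = Multiset.count Q ((Finset.univ.filter fun i => D.e i = j).val.map D.P) := by
  classical
  rw [Multiset.count_map, ← Finset.filter_val, ← Finset.card_def, mlt, fib, Finset.filter_filter, Finset.filter_filter]
  congr 1
  ext i
  simp only [Finset.mem_filter, Finset.mem_univ, true_and]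
  tauto

theorem layer_rv {j : ℕ} (hj : 1 ≤ j) : OrderBound.rv (layer g D j) = layer g D j := by
  classical
  rw [layer, Finset.prod_eq_multiset_prod, OrderBound.rv_prod]
  congr 1
  set s := (Finset.univ.filter fun i => D.e i = j).val.map D.P with hs
  ext Q
  by_cases hgood : Irreducible Q ∧ Q.Monic ∧ Q.coeff 0 ≠ 0
  · obtain ⟨hQi, hQ, h0⟩ := hgood
    have e1 : (s.map OrderBound.rv).count Q = s.count (OrderBound.rv Q) := by
      rw [Multiset.count_map, Multiset.count_eq_card_filter_eq]
      congr 1
      refine Multiset.filter_congr fun P hP => ?_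
      obtain ⟨i, -, rfl⟩ := Multiset.mem_map.1 hP
      exact ⟨fun h => by rw [h, OrderBound.rv_rv (D.monic i) (D.coeff0 i)],
        fun h => by rw [← h, OrderBound.rv_rv hQ h0]⟩
    rw [e1, hs, ← mlt_eq_count, ← mlt_eq_count, mlt_rv g D hQ hQi h0 hj]
  · rw [Multiset.count_eq_zero.2, Multiset.count_eq_zero.2]
    · intro h
      obtain ⟨i, -, rfl⟩ := Multiset.mem_map.1 h
      exact hgood ⟨D.irr i, D.monic i, D.coeff0 i⟩
    · intro h
      obtain ⟨P, hP, rfl⟩ := Multiset.mem_map.1 h
      obtain ⟨i, -, rfl⟩ := Multiset.mem_map.1 hP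
      exact hgood ⟨OrderBound.irreducible_rv (D.monic i) (D.irr i) (D.coeff0 i),
        OrderBound.rv_monic (D.monic i).ne_zero, OrderBound.coeff_zero_rv (D.monic i).ne_zero⟩

theorem layer_root (s : F) (j : ℕ) : (layer g D j).rootMultiplicity s = mlt g D (X - C s) j := by
  classical
  rw [← count_roots, layer, roots_prod _ _ (Finset.prod_ne_zero_iff.2 fun i _ => (D.monic i).ne_zero),
    Multiset.count_bind, mlt, fib, Finset.card_filter, Finset.sum_filter]
  show ∑ i ∈ _, (D.P i).roots.count s = _
  rw [Finset.sum_filter]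
  refine Finset.sum_congr rfl fun i _ => ?_
  by_cases he : D.e i = j
  · rw [if_pos he]
    by_cases hP : D.P i = X - C s
    · rw [if_pos hP, if_pos he, hP, roots_X_sub_C, Multiset.count_singleton_self]
    · rw [if_neg hP, count_roots, rootMultiplicity_eq_zero]
      intro hr
      exact hP (eq_of_monic_of_associated (monic_X_sub_C s) (D.monic i)
        ((irreducible_X_sub_C s).associated_of_dvd (D.irr i) (dvd_iff_isRoot.2 hr))).symm
  · rw [if_neg he]
    split_ifs <;> rfl

theorem layer_sum :
    (∑ j : Fin (n + n), ((j : ℕ) + 2) * (layer g D ((j : ℕ) + 2)).natDegree) + (layer g D 1).natDegree = n + n := by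
  classical
  have h : ∀ j, j * (layer g D j).natDegree =
      ∑ i ∈ Finset.univ.filter (fun i => D.e i = j), D.e i * (D.P i).natDegree := by
    intro j
    rw [layer, natDegree_prod_of_monic _ _ fun i _ => D.monic i, Finset.mul_sum]
    exact Finset.sum_congr rfl fun i hi => by rw [(Finset.mem_filter.1 hi).2]
  have hs := Finset.sum_fiberwise_of_maps_to (s := Finset.univ) (t := Finset.range (n + n + 2)) (g := D.e)
    (fun i _ => Finset.mem_range.2 (by have := e_le g D i; omega)) (fun i => D.e i * (D.P i).natDegree)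
  rw [D.sum] at hs
  simp only [← h] at hs
  rw [Finset.sum_range_succ', Finset.sum_range_succ', zero_mul, add_zero, zero_add, one_mul,
    Finset.sum_range (fun k => (k + 1 + 1) * (layer g D (k + 1 + 1)).natDegree)] at hs
  exact hs

/-- Equal layers give similarity. -/
theorem exists_intertwiner {g' : Sp F n}
    (D' : SUClassCount.Data (glA g' : Matrix (Fin (n + n)) (Fin (n + n)) F))
    (hl : ∀ j, 1 ≤ j → j ≤ n + n + 1 → layer g D j = layer g' D' j) :
    ∃ G : (Fin n ⊕ Fin n → F) ≃ₗ[F] (Fin n ⊕ Fin n → F), ∀ v, G (spT g v) = spT g' (G v) := by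
  classical
  obtain ⟨S, hS⟩ := SUClassCount.conj_of_fibres D D' (by
    rintro ⟨Q, k⟩ hk
    rcases lt_or_ge (n + n) k with hn | hn
    · haveI : IsEmpty {i // (D.P i, D.e i) = (Q, k)} := ⟨fun i => by
        have := e_le g D i.1; have := congrArg Prod.snd i.2; simp at this; omega⟩
      haveI : IsEmpty {i // (D'.P i, D'.e i) = (Q, k)} := ⟨fun i => by
        have := e_le g' D' i.1; have := congrArg Prod.snd i.2; simp at this; omega⟩
      rw [Nat.card_of_isEmpty, Nat.card_of_isEmpty]
    · have hj := hl k hk (by omega)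
      rw [layer, layer, Finset.prod_eq_multiset_prod, Finset.prod_eq_multiset_prod] at hj
      have hm := GLClassCount.multiset_eq_of_prod_eq
        (fun x hx => by obtain ⟨i, -, rfl⟩ := Multiset.mem_map.1 hx; exact ⟨D.irr i, D.monic i⟩)
        (fun x hx => by obtain ⟨i, -, rfl⟩ := Multiset.mem_map.1 hx; exact ⟨D'.irr i, D'.monic i⟩) hj
      have hcnt := congrArg (Multiset.count Q) hm
      rw [Multiset.count_map, Multiset.count_map, ← Finset.filter_val, ← Finset.filter_val,
        ← Finset.card_def, ← Finset.card_def, Finset.filter_filter, Finset.filter_filter] at hcnt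
      rw [Nat.card_eq_fintype_card, Nat.card_eq_fintype_card, Fintype.card_subtype, Fintype.card_subtype]
      refine Eq.trans ?_ (hcnt.trans ?_) <;> congr 1 <;> ext i <;> simp [Prod.ext_iff] <;> tauto)
  let L : (Fin (n + n) → F) ≃ₗ[F] (Fin (n + n) → F) :=
    LinearEquiv.ofLinearMap (Matrix.toLin' (S : Matrix (Fin (n + n)) (Fin (n + n)) F))
      (Matrix.toLin' ((S⁻¹ : GL (Fin (n + n)) F) : Matrix (Fin (n + n)) (Fin (n + n)) F))
      (by rw [← Matrix.toLin'_mul, Units.mul_inv, Matrix.toLin'_one])
      (by rw [← Matrix.toLin'_mul, Units.inv_mul, Matrix.toLin'_one])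
  refine ⟨((reix F n).symm.trans L).trans (reix F n), fun v => ?_⟩
  obtain ⟨w, rfl⟩ := (reix F n).surjective v
  show reix F n (L ((reix F n).symm (spEnd g (reix F n w)))) = spEnd g' (reix F n (L ((reix F n).symm (reix F n w))))
  rw [← reix_mulVec, ← reix_mulVec, LinearEquiv.symm_apply_apply, LinearEquiv.symm_apply_apply]
  congr 1
  have hm : (S : Matrix (Fin (n + n)) (Fin (n + n)) F) * (glA g : Matrix (Fin (n + n)) (Fin (n + n)) F) = (glA g' : Matrix (Fin (n + n)) (Fin (n + n)) F) * S :=
    congrArg Units.val (mul_inv_eq_iff_eq_mul.1 hS)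
  show Matrix.toLin' _ _ = Matrix.mulVec _ (Matrix.toLin' _ _)
  rw [Matrix.toLin'_apply, Matrix.toLin'_apply, Matrix.mulVec_mulVec, Matrix.mulVec_mulVec, hm]

end Cfsg.Agent.SpClassCount
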