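import Cfsg.Agent.ClassConj.FormConj
import Cfsg.Agent.ClassConj.KerDecomp

/-! Splitting an isometry at the generalised eigenspaces of `1` and `-1` (owner: helper23). -/

set_option autoImplicit false
set_option linter.unusedSectionVars false
set_option linter.style.haveILetI false

namespace Cfsg.Agent.SpClassCount

open Module Cfsg.Agent.ClassConj
open LinearMap (BilinForm)

variable {F : Type*} [Field F] {V V' : Type*} [AddCommGroup V] [Module F V] [FiniteDimensional F V]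
  [AddCommGroup V'] [Module F V'] [FiniteDimensional F V']

/-- The generalised eigenspace. -/
def gX (T : V ≃ₗ[F] V) (s : F) (N : ℕ) : Submodule F V := LinearMap.ker (shiftMap T s ^ N)

/-- Its complement. -/
def gY (T : V ≃ₗ[F] V) (s : F) (N : ℕ) : Submodule F V := LinearMap.range (shiftMap T s ^ N)

theorem shift_pow_comm {T : V ≃ₗ[F] V} {T' : V' ≃ₗ[F] V'} {G : V →ₗ[F] V'}
    (hG : ∀ x, G (T x) = T' (G x)) (s : F) :
    ∀ (k : ℕ) x, G ((shiftMap T s ^ k) x) = (shiftMap T' s ^ k) (G x) := by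
  intro k
  induction k with
  | zero => simp
  | succ k ih =>
    intro x
    rw [pow_succ, pow_succ, Module.End.mul_apply, Module.End.mul_apply, ih]
    congr 1
    rw [shiftMap_apply, shiftMap_apply, map_sub, map_smul, hG]

theorem g_transport {T : V ≃ₗ[F] V} {T' : V' ≃ₗ[F] V'} {G : V ≃ₗ[F] V'}
    (hG : ∀ x, G (T x) = T' (G x)) (s : F) (N : ℕ) :
    (∀ x, G x ∈ gX T' s N ↔ x ∈ gX T s N) ∧ ∀ x, G x ∈ gY T' s N ↔ x ∈ gY T s N := by
  have h := shift_pow_comm (G := G.toLinearMap) hG s N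
  refine ⟨fun x => ?_, fun x => ⟨?_, ?_⟩⟩
  · rw [gX, gX, LinearMap.mem_ker, LinearMap.mem_ker]
    show (shiftMap T' s ^ N) (G.toLinearMap x) = 0 ↔ _
    rw [← h]
    exact LinearEquiv.map_eq_zero_iff G
  · rintro ⟨y, hy⟩
    obtain ⟨z, rfl⟩ := G.surjective y
    exact ⟨z, G.injective ((h z).trans hy)⟩
  · rintro ⟨y, rfl⟩
    exact ⟨G y, (h y).symm⟩

theorem gX_invariant (T : V ≃ₗ[F] V) (s : F) (N : ℕ) (x : V) : T x ∈ gX T s N ↔ x ∈ gX T s N :=
  (g_transport (T' := T) (G := T) (fun _ => rfl) s N).1 x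

theorem gY_invariant (T : V ≃ₗ[F] V) (s : F) (N : ℕ) (x : V) : T x ∈ gY T s N ↔ x ∈ gY T s N :=
  (g_transport (T' := T) (G := T) (fun _ => rfl) s N).2 x

theorem ker_pow_le_gX (T : V ≃ₗ[F] V) (s : F) {N : ℕ} (hN : finrank F V ≤ N) (j : ℕ) :
    LinearMap.ker (shiftMap T s ^ j) ≤ gX T s N := by
  rcases le_or_gt j N with h | h
  · intro x hx
    obtain ⟨r, rfl⟩ := Nat.exists_eq_add_of_le h
    rw [gX, LinearMap.mem_ker, add_comm, pow_add, Module.End.mul_apply, LinearMap.mem_ker.1 hx, map_zero]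
  · rw [gX, Module.End.ker_pow_eq_ker_pow_finrank_of_le hN,
      Module.End.ker_pow_eq_ker_pow_finrank_of_le (hN.trans h.le)]

theorem isCompl_g (T : V ≃ₗ[F] V) (s : F) {N : ℕ} (hN : finrank F V ≤ N) : IsCompl (gX T s N) (gY T s N) := by
  refine (Submodule.isCompl_iff_disjoint _ _ (le_of_eq
    ((add_comm _ _).trans (LinearMap.finrank_range_add_finrank_ker (shiftMap T s ^ N))).symm)).2 ?_
  rw [Submodule.disjoint_def]
  rintro y hy ⟨x, rfl⟩
  have hx : x ∈ LinearMap.ker (shiftMap T s ^ (N + N)) := by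
    rw [LinearMap.mem_ker, pow_add, Module.End.mul_apply]
    exact hy
  exact ker_pow_le_gX T s hN _ hx

theorem g_orth {β : BilinForm F V} {T : V ≃ₗ[F] V} (hT : ∀ x y, β (T x) (T y) = β x y) {s : F} (hs : s * s = 1)
    (N : ℕ) : ∀ x ∈ gX T s N, ∀ y ∈ gY T s N, β x y = 0 := by
  suffices ∀ k x, (shiftMap T s ^ k) x = 0 → ∀ z, β x ((shiftMap T s ^ k) z) = 0 by
    rintro x hx _ ⟨z, rfl⟩
    exact this N x hx z
  intro k
  induction k with
  | zero => intro x hx z; rw [pow_zero, Module.End.one_apply] at hx; simp [hx]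
  | succ k ih =>
    intro x hx z
    rw [pow_succ', Module.End.mul_apply, shiftMap_apply, map_sub, map_smul]
    have e1 : β x (T ((shiftMap T s ^ k) z)) = β (T.symm x) ((shiftMap T s ^ k) z) := by
      conv_lhs => rw [← T.apply_symm_apply x, hT]
    have hy : (shiftMap T s ^ k) (T.symm (shiftMap T s x)) = 0 := by
      have hc := shift_pow_comm (T := T) (T' := T) (G := T.symm.toLinearMap) (fun v => by simp) s k (shiftMap T s x)
      rw [LinearEquiv.coe_coe] at hc
      rw [← hc, ← Module.End.mul_apply, ← pow_succ, hx, map_zero]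
    have e := ih _ hy z
    rw [shiftMap_apply, map_sub, T.symm_apply_apply, map_smul, map_sub, LinearMap.sub_apply, map_smul,
      LinearMap.smul_apply, smul_eq_mul] at e
    rw [e1, smul_eq_mul]
    linear_combination (-s) * e - (β (T.symm x) ((shiftMap T s ^ k) z)) * hs

theorem g_nondeg {β : BilinForm F V} (hA : β.IsAlt) (hβ : β.Nondegenerate) {T : V ≃ₗ[F] V}
    (hT : ∀ x y, β (T x) (T y) = β x y) {s : F} (hs : s * s = 1) {N : ℕ} (hN : finrank F V ≤ N) :
    (β.restrict (gX T s N)).Nondegenerate ∧ (β.restrict (gY T s N)).Nondegenerate :=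
  ⟨restrict_nondeg hβ hA.isRefl (isCompl_g T s hN) (g_orth hT hs N),
    restrict_nondeg hβ hA.isRefl (isCompl_g T s hN).symm fun x hx y hy =>
      hA.isRefl _ _ (g_orth hT hs N y hy x hx)⟩

theorem coe_shift_pow {X : Submodule F V} {T : V ≃ₗ[F] V} {U : X ≃ₗ[F] X} (hU : ∀ x, (U x : V) = T x) (s : F) (k : ℕ)
    (x : X) : (((shiftMap U s ^ k) x : X) : V) = (shiftMap T s ^ k) (x : V) :=
  shift_pow_comm (T := U) (T' := T) (G := X.subtype) hU s k x

theorem gXm_le_gY (h2 : (2 : F) ≠ 0) (T : V ≃ₗ[F] V) {N : ℕ} (hN : finrank F V ≤ N) :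
    gX T (-1) N ≤ gY T 1 N := by
  intro x hx
  obtain ⟨a, ha, b, hb, rfl⟩ := Submodule.mem_sup.1
    ((isCompl_g T 1 hN).sup_eq_top.symm ▸ Submodule.mem_top (x := x))
  have hXinv : ∀ v ∈ gX T 1 N, ∀ k, (shiftMap T (-1) ^ k) v ∈ gX T 1 N := by
    intro v hv k
    induction k with
    | zero => simpa
    | succ k ih =>
      rw [pow_succ', Module.End.mul_apply, shiftMap_apply]
      exact sub_mem ((gX_invariant T 1 N _).2 ih) (Submodule.smul_mem _ _ ih)
  have hYinv : ∀ v ∈ gY T 1 N, ∀ k, (shiftMap T (-1) ^ k) v ∈ gY T 1 N := by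
    intro v hv k
    induction k with
    | zero => simpa
    | succ k ih =>
      rw [pow_succ', Module.End.mul_apply, shiftMap_apply]
      exact sub_mem ((gY_invariant T 1 N _).2 ih) (Submodule.smul_mem _ _ ih)
  rw [gX, LinearMap.mem_ker, map_add] at hx
  have h0 : (shiftMap T (-1) ^ N) a = 0 :=
    Submodule.disjoint_def.1 (isCompl_g T 1 hN).disjoint _ (hXinv a ha N) (by
      rw [eq_neg_of_add_eq_zero_left hx]; exact neg_mem (hYinv b hb N))
  have hp : ∀ (t : F) (k : ℕ), Polynomial.aeval (T.toLinearMap : Module.End F V) ((Polynomial.X - Polynomial.C t) ^ k) = shiftMap T t ^ k := by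
    intro t k
    rw [map_pow, map_sub, Polynomial.aeval_X, Polynomial.aeval_C]
    rfl
  have hcop : IsCoprime ((Polynomial.X - Polynomial.C (1 : F)) ^ N) ((Polynomial.X - Polynomial.C (-1 : F)) ^ N) :=
    IsCoprime.pow (Polynomial.isCoprime_X_sub_C_of_isUnit_sub (by
      rw [sub_neg_eq_add, one_add_one_eq_two]; exact h2.isUnit))
  have ha0 : a = 0 := Submodule.disjoint_def.1 (Polynomial.disjoint_ker_aeval_of_isCoprime (T.toLinearMap : Module.End F V) hcop) a
    (by rw [hp]; exact ha) (by rw [hp, LinearMap.mem_ker]; exact h0)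
  rw [ha0, zero_add]
  exact hb

/-- Isometries with matching parts at `1` and `-1` which are linearly similar are isometric. -/
theorem exists_isometry_of_parts [Finite F] (h2 : (2 : F) ≠ 0) {β : BilinForm F V} {β' : BilinForm F V'} (hA : β.IsAlt)
    (hβ : β.Nondegenerate) (hA' : β'.IsAlt) (hβ' : β'.Nondegenerate) {T : V ≃ₗ[F] V} {T' : V' ≃ₗ[F] V'}
    (hT : ∀ x y, β (T x) (T y) = β x y) (hT' : ∀ x y, β' (T' x) (T' y) = β' x y) {G : V ≃ₗ[F] V'}
    (hG : ∀ x, G (T x) = T' (G x)) {N : ℕ} (hN : finrank F V ≤ N)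
    (hpart : ∀ s : F, s * s = 1 → ∃ f : gX T s N ≃ₗ[F] gX T' s N,
      (∀ (a : gX T s N) (h : T a ∈ gX T s N), (f ⟨T a, h⟩ : V') = T' (f a)) ∧
        ∀ a b, β' (f a : V') (f b : V') = β (a : V) (b : V)) :
    ∃ f : V ≃ₗ[F] V', (∀ x, f (T x) = T' (f x)) ∧ ∀ x y, β' (f x) (f y) = β x y := by
  have hN' : finrank F V' ≤ N := G.finrank_eq ▸ hN
  let Y := gY T 1 N
  let Y' := gY T' 1 N
  let U := restrEquiv T Y Y (gY_invariant T 1 N)
  let U' := restrEquiv T' Y' Y' (gY_invariant T' 1 N)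
  let GY := restrEquiv G Y Y' (g_transport hG 1 N).2
  have hGY : ∀ y, GY (U y) = U' (GY y) := fun y => Subtype.ext (hG _)
  have hNY : finrank F Y ≤ N := le_trans (Submodule.finrank_le _) hN
  have hNY' : finrank F Y' ≤ N := le_trans (Submodule.finrank_le _) hN'
  have hYn := (g_nondeg hA hβ hT (one_mul 1) hN).2
  have hYn' := (g_nondeg hA' hβ' hT' (one_mul 1) hN').2
  have hmem : ∀ (y : Y), y ∈ gX U (-1) N ↔ (y : V) ∈ gX T (-1) N := fun y => by
    rw [gX, gX, LinearMap.mem_ker, LinearMap.mem_ker, ← coe_shift_pow (fun x => restrEquiv_apply T Y Y (gY_invariant T 1 N) x) (-1) N y]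
    exact ⟨fun h => by rw [h]; rfl, fun h => Subtype.ext h⟩
  have hmem' : ∀ (y : Y'), y ∈ gX U' (-1) N ↔ (y : V') ∈ gX T' (-1) N := fun y => by
    rw [gX, gX, LinearMap.mem_ker, LinearMap.mem_ker, ← coe_shift_pow (fun x => restrEquiv_apply T' Y' Y' (gY_invariant T' 1 N) x) (-1) N y]
    exact ⟨fun h => by rw [h]; rfl, fun h => Subtype.ext h⟩
  let i : gX U (-1) N ≃ₗ[F] gX T (-1) N :=
    { toFun := fun a => ⟨(a.1 : V), (hmem a.1).1 a.2⟩
      invFun := fun a => ⟨⟨a.1, gXm_le_gY h2 T hN a.2⟩, (hmem _).2 a.2⟩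
      left_inv := fun _ => rfl
      right_inv := fun _ => rfl
      map_add' := fun _ _ => rfl
      map_smul' := fun _ _ => rfl }
  let i' : gX U' (-1) N ≃ₗ[F] gX T' (-1) N :=
    { toFun := fun a => ⟨(a.1 : V'), (hmem' a.1).1 a.2⟩
      invFun := fun a => ⟨⟨a.1, gXm_le_gY h2 T' hN' a.2⟩, (hmem' _).2 a.2⟩
      left_inv := fun _ => rfl
      right_inv := fun _ => rfl
      map_add' := fun _ _ => rfl
      map_smul' := fun _ _ => rfl }
  obtain ⟨fm, hmt, hmi⟩ := hpart (-1) (by ring)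
  obtain ⟨fp, hpt, hpi⟩ := hpart 1 (one_mul 1)
  have ho : ∀ x ∈ gX U (-1) N, ∀ y ∈ gY U (-1) N, β.restrict Y x y = 0 :=
    g_orth (β := β.restrict Y) (fun a b => hT _ _) (by ring) N
  have ho' : ∀ x ∈ gX U' (-1) N, ∀ y ∈ gY U' (-1) N, β'.restrict Y' x y = 0 :=
    g_orth (β := β'.restrict Y') (fun a b => hT' _ _) (by ring) N
  have hnY0 := (g_nondeg (β := β.restrict Y) (fun x => hA _) hYn (T := U) (fun a b => hT _ _)
    (show (-1 : F) * -1 = 1 by ring) hNY).2
  have hnY0' := (g_nondeg (β := β'.restrict Y') (fun x => hA' _) hYn' (T := U') (fun a b => hT' _ _)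
    (show (-1 : F) * -1 = 1 by ring) hNY').2
  let W := restrEquiv U (gY U (-1) N) (gY U (-1) N) (gY_invariant U (-1) N)
  let W' := restrEquiv U' (gY U' (-1) N) (gY U' (-1) N) (gY_invariant U' (-1) N)
  let G0 := restrEquiv GY (gY U (-1) N) (gY U' (-1) N) (g_transport hGY (-1) N).2
  obtain ⟨f0, h0t, h0i⟩ := exists_intertwiner_of_fix_eq_zero (ε := (-1 : F)) (by ring) hnY0 hnY0'
    (fun x y => alt_swap hA _ _) (fun x y => alt_swap hA' _ _) W W'
    (fun x y => hT _ _) (fun x y => hT' _ _) G0 (fun x => Subtype.ext (hGY _))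
    (fun x hx => by
      have hx' : U (U (x : Y)) = (x : Y) := congrArg Subtype.val hx
      have h1 : U (x : Y) + (x : Y) = 0 := by
        refine Subtype.ext (Submodule.disjoint_def.1 (isCompl_g T 1 hN).disjoint _
          (ker_pow_le_gX T 1 hN 1 ?_) (Subtype.prop (U (x : Y) + (x : Y))))
        rw [pow_one, mem_ker_shiftMap, one_smul]
        show ((U (U (x : Y) + x) : Y) : V) = ((U x + x : Y) : V)
        rw [map_add, hx', add_comm]
      refine Subtype.ext (Submodule.disjoint_def.1 (isCompl_g U (-1) hNY).disjoint _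
        (ker_pow_le_gX U (-1) hNY 1 ?_) x.2)
      rw [pow_one, mem_ker_shiftMap, neg_one_smul, eq_neg_iff_add_eq_zero]
      exact h1)
  have hRY : (β.restrict Y).IsRefl := fun a b h => hA.isRefl _ _ h
  have hRY' : (β'.restrict Y').IsRefl := fun a b h => hA'.isRefl _ _ h
  obtain ⟨fY, hYt, hYi⟩ := glue (T := U) (T' := U') hRY hRY' (isCompl_g U (-1) hNY) (isCompl_g U' (-1) hNY') ho ho'
    ((i.trans fm).trans i'.symm) f0
    (fun a b => hmi (i a) (i b)) h0i
    (fun a h => Subtype.ext (hmt (i a) ((hmem _).1 h)))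
    (fun a h => congrArg Subtype.val (h0t a))
    (fun a ha => (gX_invariant U (-1) N a).2 ha) (fun a ha => (gY_invariant U (-1) N a).2 ha)
  exact glue hA.isRefl hA'.isRefl (isCompl_g T 1 hN) (isCompl_g T' 1 hN') (g_orth hT (one_mul 1) N)
    (g_orth hT' (one_mul 1) N) fp fY hpi hYi hpt (fun a h => congrArg Subtype.val (hYt a))
    (fun a ha => (gX_invariant T 1 N a).2 ha) (fun a ha => (gY_invariant T 1 N a).2 ha)

end Cfsg.Agent.SpClassCount
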