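import Cfsg.Agent.SpClassCount.Arith
import Cfsg.Agent.SpClassCount.Layers
import Cfsg.Agent.SpClassCount.Unip
import Cfsg.Agent.SpClassCount.Peel

/-! The number of conjugacy classes of `Sp_2n(q)`, `q` odd (owner: helper23). -/

set_option autoImplicit false
set_option linter.style.haveILetI false
set_option linter.unusedSectionVars false

namespace Cfsg.Agent.SpClassCount

open Polynomial Module
open LinearMap (BilinForm)

universe u

variable {F : Type u} [Field F]

/-- A layer with its signs. -/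
abbrev LayObj (F : Type u) [Field F] (j : ℕ) : Type u :=
  {x : F[X] × Bool × Bool // SelfRec x.1 ∧
    (x.2.1 = true → x.1.IsRoot 1 ∧ Even j) ∧ (x.2.2 = true → x.1.IsRoot (-1) ∧ Even j) ∧
      (Odd j → Even (x.1.rootMultiplicity 1) ∧ Even (x.1.rootMultiplicity (-1)))}

/-- The size of a layer. -/
noncomputable def ld {j : ℕ} (x : LayObj F j) : ℕ := if j % 2 = 1 then x.1.1.natDegree / 2 else x.1.1.natDegree

theorem wt_mul_ld (h2 : (2 : F) ≠ 0) {j : ℕ} (x : LayObj F j) : 2 * (wt j * ld x) = j * x.1.1.natDegree := by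
  unfold wt ld
  split_ifs with hj
  · obtain ⟨a, b, e, f₀, hfe, hn, hn', hdeg⟩ := exists_split h2 x.2.1
    obtain ⟨ha, hb⟩ := mult_eq h2 f₀.2.1.ne_zero hn hn' a b
    rw [← hfe] at ha hb
    obtain ⟨h1, h1'⟩ := x.2.2.2.2 (Nat.odd_iff.2 hj)
    rw [ha] at h1
    rw [hb] at h1'
    obtain ⟨a', rfl⟩ := h1
    obtain ⟨b', rfl⟩ := h1'
    rw [hdeg, show (a' + a' + (b' + b') + 2 * e) / 2 = a' + b' + e by omega]
    ring
  · obtain ⟨i, rfl⟩ : ∃ i, j = 2 * i := ⟨j / 2, by omega⟩
    rw [show 2 * i / 2 = i by omega]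
    ring

variable [Fintype F]

theorem card_layObj (h2 : (2 : F) ≠ 0) (j d : ℕ) :
    Finite {x : LayObj F j // ld x = d} ∧ Nat.card {x : LayObj F j // ld x = d} ≤ lay (Fintype.card F) j d := by
  unfold lay
  split_ifs with hj
  · obtain ⟨hfin, hle⟩ := card_oddObj (F := F) h2 d
    have hσ : ∀ x : LayObj F j, x.1.2 = (false, false) := fun x => by
      have hne : ¬ Even j := Nat.not_even_iff_odd.2 (Nat.odd_iff.2 hj)
      exact Prod.ext (by cases h : x.1.2.1 <;> simp_all [(fun h => hne (x.2.2.1 h).2)])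
        (by cases h : x.1.2.2 <;> simp_all [(fun h => hne (x.2.2.2.1 h).2)])
    have hdeg : ∀ x : {x : LayObj F j // ld x = d}, x.1.1.1.natDegree = 2 * d := fun x => by
      have h := wt_mul_ld h2 x.1
      rw [x.2, wt, if_pos hj, mul_left_comm] at h
      exact (Nat.eq_of_mul_eq_mul_left (by omega) h).symm
    let f : {x : LayObj F j // ld x = d} → OddObj F d := fun x =>
      ⟨x.1.1.1, x.1.2.1, (x.1.2.2.2.2 (Nat.odd_iff.2 hj)).1, (x.1.2.2.2.2 (Nat.odd_iff.2 hj)).2, hdeg x⟩
    have hf : Function.Injective f := fun x y h => by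
      refine Subtype.ext (Subtype.ext (Prod.ext (congrArg (fun t : OddObj F d => t.1) h) ?_))
      rw [hσ, hσ]
    exact ⟨Finite.of_injective f hf, (Nat.card_le_card_of_injective f hf).trans hle⟩
  · obtain ⟨hfin, hle⟩ := card_evenObj (F := F) h2 d
    let f : {x : LayObj F j // ld x = d} → EvenObj F d := fun x =>
      ⟨x.1.1, x.1.2.1, by have h := x.2; unfold ld at h; rwa [if_neg hj] at h,
        fun h => (x.1.2.2.1 h).1, fun h => (x.1.2.2.2.1 h).1⟩
    have hf : Function.Injective f := fun x y h =>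
      Subtype.ext (Subtype.ext (congrArg (fun t : EvenObj F d => t.1) h))
    exact ⟨Finite.of_injective f hf, (Nat.card_le_card_of_injective f hf).trans hle⟩

/-- Tuples of layers `2, …, J + 1`. -/
abbrev Tup (F : Type u) [Field F] (J n : ℕ) : Type u :=
  {f : (i : Fin J) → LayObj F ((i : ℕ) + 2) // ∑ i : Fin J, wt ((i : ℕ) + 2) * ld (f i) = n}

theorem card_tup (h2 : (2 : F) ≠ 0) : ∀ J n, Finite (Tup F J n) ∧ Nat.card (Tup F J n) ≤ cS (Fintype.card F) J n
  | 0, n => by
    haveI : Subsingleton (Tup F 0 n) := ⟨fun a b => Subtype.ext (_root_.funext fun i => i.elim0)⟩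
    refine ⟨inferInstance, ?_⟩
    by_cases hn : n = 0
    · rw [cS, if_pos hn]
      exact Finite.card_le_one_iff_subsingleton.2 inferInstance
    · haveI : IsEmpty (Tup F 0 n) := ⟨fun a => hn (by simpa using a.2.symm)⟩
      simp
  | J + 1, n => by
    classical
    haveI := fun m => (card_tup h2 J m).1
    haveI := fun d => (card_layObj (F := F) h2 (J + 2) d).1
    have hw := wt_pos (show 2 ≤ J + 2 by omega)
    have hb : ∀ f : Tup F (J + 1) n, (∑ j : Fin J, wt ((j : ℕ) + 2) * ld (f.1 j.castSucc)) +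
        wt (J + 2) * ld (f.1 (Fin.last J)) = n := by
      intro f
      have h := f.2
      rw [Fin.sum_univ_castSucc] at h
      exact h
    let g : Tup F (J + 1) n → Σ d : Fin (n / wt (J + 2) + 1),
        {x : LayObj F (J + 2) // ld x = (d : ℕ)} × Tup F J (n - wt (J + 2) * d) := fun f =>
      ⟨⟨ld (f.1 (Fin.last J)), by
          rw [Nat.lt_succ_iff, Nat.le_div_iff_mul_le (by omega), mul_comm]
          exact le_of_le_of_eq (Nat.le_add_left _ _) (hb f)⟩,
        ⟨f.1 (Fin.last J), rfl⟩, ⟨fun j => f.1 j.castSucc, by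
          exact eq_tsub_of_add_eq (hb f)⟩⟩
    have hgi : Function.Injective g := by
      intro f f' e
      have h1 := congrArg (fun s : Σ d : Fin (n / wt (J + 2) + 1),
        {x : LayObj F (J + 2) // ld x = (d : ℕ)} × Tup F J (n - wt (J + 2) * d) => s.2.1.1) e
      have h2 := congrArg (fun s : Σ d : Fin (n / wt (J + 2) + 1),
        {x : LayObj F (J + 2) // ld x = (d : ℕ)} × Tup F J (n - wt (J + 2) * d) => s.2.2.1) e
      exact Subtype.ext (_root_.funext fun j => Fin.lastCases h1 (fun i => congrFun h2 i) j)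
    refine ⟨Finite.of_injective g hgi, (Nat.card_le_card_of_injective g hgi).trans ?_⟩
    rw [Nat.card_sigma, cS, Finset.sum_range]
    refine Finset.sum_le_sum fun d _ => ?_
    rw [Nat.card_prod]
    exact Nat.mul_le_mul (card_layObj h2 _ _).2 (card_tup h2 J _).2

variable {n : ℕ} (g : Sp F n)

/-- The unipotent isometry on the generalised eigenspace of `s`. -/
noncomputable def partEnd (s : F) : Module.End F (gX (spT g) s (n + n)) :=
  s • (ClassConj.restrEquiv (spT g) (gX (spT g) s (n + n)) (gX (spT g) s (n + n))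
    (gX_invariant (spT g) s (n + n))).toLinearMap

theorem finrank_le : finrank F (Fin n ⊕ Fin n → F) ≤ n + n := by
  rw [finrank_fintype_fun_eq_card, Fintype.card_sum, Fintype.card_fin]

theorem partEnd_sub_pow (s : F) (hs : s * s = 1) (k : ℕ) (x : gX (spT g) s (n + n)) :
    (((partEnd g s - 1) ^ k) x : Fin n ⊕ Fin n → F) = s ^ k • (ClassConj.shiftMap (spT g) s ^ k) (x : Fin n ⊕ Fin n → F) := by
  induction k with
  | zero => simp
  | succ k ih =>
    rw [pow_succ', Module.End.mul_apply, pow_succ' (ClassConj.shiftMap (spT g) s), Module.End.mul_apply]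
    show s • spT g ((((partEnd g s - 1) ^ k) x : gX (spT g) s (n + n)) : Fin n ⊕ Fin n → F) -
      (((partEnd g s - 1) ^ k) x : Fin n ⊕ Fin n → F) = _
    rw [ih, map_smul, smul_smul, ← pow_succ', ClassConj.shiftMap_apply, smul_sub, smul_smul _ s, pow_succ, mul_assoc, hs, mul_one]

theorem exists_part (h2 : (2 : F) ≠ 0) (s : F) :
    Nonempty (s * s = 1 → UData ((Forms.sympBil n F).restrict (gX (spT g) s (n + n))) (partEnd g s) (n + n)) := by
  by_cases hs : s * s = 1
  swap
  · exact ⟨fun h => absurd h hs⟩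
  obtain ⟨U⟩ := exists_udata (β := (Forms.sympBil n F).restrict (gX (spT g) s (n + n))) (f := partEnd g s) (N := n + n) h2 (fun x => Forms.sympBil_isAlt _)
    (g_nondeg Forms.sympBil_isAlt Forms.sympBil_nondegenerate (spT_iso g) hs finrank_le).1
    (fun u v => by
      show Forms.sympBil n F (s • spT g (u : Fin n ⊕ Fin n → F)) (s • spT g (v : Fin n ⊕ Fin n → F)) = _
      rw [map_smul, map_smul, LinearMap.smul_apply, spT_iso, smul_smul, hs, one_smul]
      rfl)
    (LinearMap.ext fun x => Subtype.ext (by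
      rw [partEnd_sub_pow g s hs, LinearMap.mem_ker.1 x.2, smul_zero]
      rfl))
  exact ⟨fun _ => U⟩

variable (h2 : (2 : F) ≠ 0) (D : SUClassCount.Data (glA g : Matrix (Fin (n + n)) (Fin (n + n)) F))

/-- The chosen chains. -/
noncomputable def part (s : F) (hs : s * s = 1) :
    UData ((Forms.sympBil n F).restrict (gX (spT g) s (n + n))) (partEnd g s) (n + n) :=
  (exists_part g h2 s).some hs

theorem part_lev (s : F) (hs : s * s = 1) {K : ℕ} (hK : 1 ≤ K) :
    (part g h2 s hs).lev K = mlt g D (X - C s) K := by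
  classical
  show Fintype.card {a // (part g h2 s hs).k a = K} = _
  rw [Fintype.card_subtype]
  refine count_eq_of_min _ _ _ _ (fun m => ?_) hK
  rw [← (part g h2 s hs).finrank_ker_pow m]
  have h := kd_eq g D (monic_X_sub_C s) (irreducible_X_sub_C s) m
  rw [natDegree_X_sub_C, one_mul] at h
  rw [← h]
  have e : aeval (SympUnip.spEnd g) ((X - C s) ^ m) = ClassConj.shiftMap (spT g) s ^ m := by
    rw [map_pow, map_sub, aeval_X, aeval_C]
    rfl
  rw [e]
  have hmap : (LinearMap.ker ((partEnd g s - 1) ^ m)).map (gX (spT g) s (n + n)).subtype =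
      LinearMap.ker (ClassConj.shiftMap (spT g) s ^ m) := by
    have hs0 : s ≠ 0 := left_ne_zero_of_mul_eq_one hs
    ext v
    constructor
    · rintro ⟨x, hx, rfl⟩
      have := congrArg Subtype.val (LinearMap.mem_ker.1 hx)
      rw [partEnd_sub_pow g s hs, ZeroMemClass.coe_zero, smul_eq_zero] at this
      exact LinearMap.mem_ker.2 (this.resolve_left (pow_ne_zero _ hs0))
    · intro hv
      refine ⟨⟨v, ker_pow_le_gX (spT g) s finrank_le m hv⟩, LinearMap.mem_ker.2 (Subtype.ext ?_), rfl⟩
      rw [partEnd_sub_pow g s hs, LinearMap.mem_ker.1 hv, smul_zero]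
      rfl
  rw [← hmap]
  exact (Submodule.equivMapOfInjective _ (Submodule.injective_subtype _) _).finrank_eq

theorem part_lev_zero (s : F) (hs : s * s = 1) : (part g h2 s hs).lev 0 = 0 :=
  Fintype.card_eq_zero_iff.2 ⟨fun a => by have := (part g h2 s hs).datum.pos a.1; have := a.2; omega⟩

include h2 in
theorem mlt_even (s : F) (hs : s * s = 1) {j : ℕ} (hj : Odd j) : Even (mlt g D (X - C s) j) :=
  part_lev g h2 D s hs hj.pos ▸ (part g h2 s hs).lev_odd h2 (fun x => Forms.sympBil_isAlt _) hj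

/-- The sign of a layer. -/
noncomputable def sign (s : F) (hs : s * s = 1) (j : ℕ) : Bool :=
  if Even j then (part g h2 s hs).disc j else false

/-- A layer with its signs, from an element. -/
noncomputable def layObj (j : ℕ) (hj : 1 ≤ j) : LayObj F j :=
  ⟨(layer g D j, sign g h2 1 (one_mul 1) j, sign g h2 (-1) (by ring) j),
    ⟨layer_monic g D j, layer_coeff0 g D j, layer_rv g D hj⟩,
    fun h => by
      simp only [sign] at h
      split_ifs at h with he
      refine ⟨(rootMultiplicity_pos (layer_monic g D j).ne_zero).1 (Nat.pos_of_ne_zero fun h0 => ?_), he⟩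
      rw [layer_root, ← part_lev g h2 D 1 (one_mul 1) hj] at h0
      rw [(part g h2 1 (one_mul 1)).disc_of_lev h0] at h
      exact Bool.false_ne_true h,
    fun h => by
      simp only [sign] at h
      split_ifs at h with he
      refine ⟨(rootMultiplicity_pos (layer_monic g D j).ne_zero).1 (Nat.pos_of_ne_zero fun h0 => ?_), he⟩
      rw [layer_root, ← part_lev g h2 D (-1) (by ring) hj] at h0
      rw [(part g h2 (-1) (by ring)).disc_of_lev h0] at h
      exact Bool.false_ne_true h,
    fun ho => by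
      rw [layer_root, layer_root]
      exact ⟨mlt_even g h2 D 1 (one_mul 1) ho, mlt_even g h2 D (-1) (by ring) ho⟩⟩

theorem layer_eq_one_of_gt {j : ℕ} (hj : n + n < j) : layer g D j = 1 := by
  rw [layer, Finset.prod_eq_one]
  intro i hi
  simp only [Finset.mem_filter] at hi
  have := e_le g D i
  omega

theorem mlt_zero_of_gt (Q : F[X]) {j : ℕ} (hj : n + n < j) : mlt g D Q j = 0 := by
  rw [mlt, Finset.card_eq_zero, Finset.filter_eq_empty_iff]
  intro i _
  have := e_le g D i
  omega

theorem isConj_of_data {g' : Sp F n} (D' : SUClassCount.Data (glA g' : Matrix (Fin (n + n)) (Fin (n + n)) F))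
    (hl : ∀ j (hj : 1 ≤ j), j ≤ n + n + 1 → (layObj g h2 D j hj).1 = (layObj g' h2 D' j hj).1) : IsConj g g' := by
  have hlay : ∀ j, 1 ≤ j → j ≤ n + n + 1 → layer g D j = layer g' D' j := fun j h1 h2' =>
    congrArg Prod.fst (hl j h1 h2')
  obtain ⟨G, hG⟩ := exists_intertwiner g D D' hlay
  have hpart : ∀ s : F, s * s = 1 → ∃ f : gX (spT g) s (n + n) ≃ₗ[F] gX (spT g') s (n + n),
      (∀ (a : gX (spT g) s (n + n)) (h : spT g a ∈ gX (spT g) s (n + n)),
        (f ⟨spT g a, h⟩ : Fin n ⊕ Fin n → F) = spT g' (f a)) ∧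
        ∀ a b, Forms.sympBil n F (f a : Fin n ⊕ Fin n → F) (f b : Fin n ⊕ Fin n → F) =
          Forms.sympBil n F (a : Fin n ⊕ Fin n → F) (b : Fin n ⊕ Fin n → F) := by
    intro s hs
    have hlev : ∀ K, (part g h2 s hs).lev K = (part g' h2 s hs).lev K := by
      intro K
      rcases Nat.eq_zero_or_pos K with rfl | hK
      · rw [part_lev_zero, part_lev_zero]
      rw [part_lev g h2 D s hs hK, part_lev g' h2 D' s hs hK]
      rcases le_or_gt K (n + n + 1) with h | h
      · rw [← layer_root, ← layer_root, hlay K hK h]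
      · rw [mlt_zero_of_gt g D _ (by omega), mlt_zero_of_gt g' D' _ (by omega)]
    obtain ⟨E, hE, hE'⟩ := (part g h2 s hs).exists_iso (part g' h2 s hs) h2 (fun x => Forms.sympBil_isAlt _)
      (fun x => Forms.sympBil_isAlt _) hlev fun K hK => by
      rcases Nat.eq_zero_or_pos K with rfl | hK0
      · rw [(part g h2 s hs).disc_of_lev (part_lev_zero ..), (part g' h2 s hs).disc_of_lev (part_lev_zero ..)]
      rcases le_or_gt K (n + n + 1) with h | h
      · have e1 := congrArg (fun t => t.2.1) (hl K hK0 h)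
        have e2 := congrArg (fun t => t.2.2) (hl K hK0 h)
        simp only [layObj, sign, if_pos hK] at e1 e2
        rcases mul_self_eq_one_iff.1 hs with h1 | h1
        · subst h1; exact e1
        · subst h1; exact e2
      · rw [(part g h2 s hs).disc_of_lev, (part g' h2 s hs).disc_of_lev] <;>
          rw [part_lev _ _ (by assumption) s hs hK0, mlt_zero_of_gt _ _ _ (by omega)]
    have hs0 : s ≠ 0 := left_ne_zero_of_mul_eq_one hs
    refine ⟨E, fun a h => ?_, hE'⟩
    have h' := congrArg Subtype.val (hE a)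
    simp only [partEnd, LinearMap.smul_apply, LinearEquiv.coe_coe, map_smul, Submodule.coe_smul,
      ClassConj.restrEquiv_apply] at h'
    exact smul_right_injective _ hs0 h'
  obtain ⟨f, hf, hfi⟩ := exists_isometry_of_parts h2 Forms.sympBil_isAlt Forms.sympBil_nondegenerate
    Forms.sympBil_isAlt Forms.sympBil_nondegenerate (spT_iso g) (spT_iso g') hG finrank_le hpart
  obtain ⟨c, hc⟩ := SympUnip.exists_spEnd_eq f.toLinearMap hfi
  rw [isConj_iff]
  refine ⟨c, ?_⟩
  rw [mul_inv_eq_iff_eq_mul]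
  refine SympUnip.spEnd_injective ?_
  rw [SympUnip.spEnd_mul, SympUnip.spEnd_mul, hc]
  exact LinearMap.ext hf

theorem upper (hq : Odd (Fintype.card F)) (n : ℕ) :
    Nat.card (ConjClasses (Sp F n)) ≤
      ∑ m ∈ Finset.range (n + 1), cS (Fintype.card F) (n + n) m * Fintype.card F ^ (n - m) := by
  classical
  have h2 : (2 : F) ≠ 0 := Ring.two_ne_zero fun h => by
    have := FiniteField.even_card_of_char_two h
    rw [Nat.odd_iff] at hq
    omega
  haveI := fun m => (card_tup (F := F) h2 (n + n) m).1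
  haveI := fun e => (card_layObj (F := F) h2 1 e).1
  let rp : ConjClasses (Sp F n) → Sp F n := fun c => c.out
  let D : ∀ c, SUClassCount.Data (glA (rp c) : Matrix (Fin (n + n)) (Fin (n + n)) F) := fun c =>
    (SUClassCount.exists_data' (glA (rp c))).some
  let lo : ∀ c j, LayObj F (j + 1) := fun c j => layObj (rp c) h2 (D c) (j + 1) (by omega)
  have hsum : ∀ c, (∑ i : Fin (n + n), wt ((i : ℕ) + 2) * ld (lo c ((i : ℕ) + 1))) + ld (lo c 0) = n := by
    intro c
    have h := layer_sum (rp c) (D c)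
    have h1 : ∀ i : Fin (n + n), ((i : ℕ) + 2) * (layer (rp c) (D c) ((i : ℕ) + 2)).natDegree =
        2 * (wt ((i : ℕ) + 2) * ld (lo c ((i : ℕ) + 1))) := fun i =>
      (wt_mul_ld h2 (lo c ((i : ℕ) + 1))).symm
    have h0 : (layer (rp c) (D c) 1).natDegree = 2 * (wt 1 * ld (lo c 0)) := by
      rw [wt_mul_ld h2 (lo c 0)]
      exact (one_mul _).symm
    simp only [h1, ← Finset.mul_sum, h0] at h
    have hw : wt 1 = 1 := rfl
    rw [hw, one_mul] at h
    omega
  let Φ : ConjClasses (Sp F n) → Σ m : Fin (n + 1),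
      Tup F (n + n) m × {x : LayObj F 1 // ld x = n - (m : ℕ)} := fun c =>
    ⟨⟨∑ i : Fin (n + n), wt ((i : ℕ) + 2) * ld (lo c ((i : ℕ) + 1)), by have := hsum c; omega⟩,
      ⟨fun i => lo c ((i : ℕ) + 1), rfl⟩, ⟨lo c 0, (Nat.sub_eq_of_eq_add' (hsum c).symm).symm⟩⟩
  have hinj : Function.Injective Φ := by
    intro c c' h
    have e1 := congrArg (fun t : Σ m : Fin (n + 1), Tup F (n + n) m × {x : LayObj F 1 // ld x = n - (m : ℕ)} => t.2.1.1) h
    have e2 := congrArg (fun t : Σ m : Fin (n + 1), Tup F (n + n) m × {x : LayObj F 1 // ld x = n - (m : ℕ)} => t.2.2.1) h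
    suffices hc : IsConj (rp c) (rp c') from
      (Quotient.out_eq c).symm.trans ((ConjClasses.mk_eq_mk_iff_isConj.2 hc).trans (Quotient.out_eq c'))
    refine isConj_of_data (rp c) h2 (D c) (D c') fun j h1 h3 => ?_
    rcases Nat.lt_or_ge j 2 with hj | hj
    · obtain rfl : j = 1 := by omega
      exact congrArg Subtype.val e2
    · obtain ⟨i, rfl⟩ : ∃ i, j = i + 2 := ⟨j - 2, by omega⟩
      exact congrArg Subtype.val (congrFun e1 ⟨i, by omega⟩)
  refine (Nat.card_le_card_of_injective Φ hinj).trans ?_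
  rw [Nat.card_sigma, Finset.sum_range]
  refine Finset.sum_le_sum fun m _ => ?_
  rw [Nat.card_prod]
  exact Nat.mul_le_mul (card_tup h2 _ _).2 ((card_layObj h2 1 _).2.trans (le_of_eq (if_pos rfl)))

end Cfsg.Agent.SpClassCount
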