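import Cfsg.Agent.SpClassCount.Poly

/-! The recursion bounding the number of classes of `Sp_2n(q)`, `q` odd (owner: helper23). -/

set_option autoImplicit false

namespace Cfsg.Agent.SpClassCount

open Finset

/-- The weight of a unit of the layer `j`. -/
def wt (j : ℕ) : ℕ := if j % 2 = 1 then j else j / 2

/-- The number of choices in the layer `j`. -/
def lay (q j d : ℕ) : ℕ := if j % 2 = 1 then q ^ d else psi q d

theorem wt_pos {j : ℕ} (h : 2 ≤ j) : 1 ≤ wt j := by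
  unfold wt
  split_ifs <;> omega

/-- Tuples of layers `2, …, J + 1`. -/
def cS (q : ℕ) : ℕ → ℕ → ℕ
  | 0, n => if n = 0 then 1 else 0
  | J + 1, n => ∑ d ∈ range (n / wt (J + 2) + 1), lay q (J + 2) d * cS q J (n - wt (J + 2) * d)

/-- The Euler factor of a layer. -/
def fac (q : ℕ) (s : ℚ) (j : ℕ) : ℚ :=
  (if j % 2 = 1 then 1 else (1 + s ^ (j / 2)) ^ 4) / (1 - q * s ^ j)

theorem one_le_fac {q : ℕ} {s : ℚ} {j : ℕ} (hs : 0 ≤ s) (h : (q : ℚ) * s ^ j < 1) : 1 ≤ fac q s j := by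
  have h1 : (0 : ℚ) ≤ q * s ^ j := by positivity
  rw [fac, le_div_iff₀ (by linarith)]
  have h2 : (1 : ℚ) ≤ (1 + s ^ (j / 2)) ^ 4 := one_le_pow₀ (by linarith [pow_nonneg hs (j / 2)])
  split_ifs <;> linarith

theorem geom_le {x : ℚ} (h0 : 0 ≤ x) (h1 : x < 1) (D : ℕ) : ∑ d ∈ range D, x ^ d ≤ 1 / (1 - x) := by
  rw [le_div_iff₀ (by linarith), geom_sum_mul_neg]
  linarith [pow_nonneg h0 D]

theorem shifted_le {q : ℕ} {z : ℚ} (hz : 0 ≤ z) (h : (q : ℚ) * z ^ 2 < 1) (c D : ℕ) :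
    ∑ d ∈ range (D + 1), ((if c ≤ d ∧ 2 ∣ d - c then q ^ ((d - c) / 2) else 0 : ℕ) : ℚ) * z ^ d ≤
      z ^ c * (1 / (1 - q * z ^ 2)) := by
  have hterm : ∀ d, ((if c ≤ d ∧ 2 ∣ d - c then q ^ ((d - c) / 2) else 0 : ℕ) : ℚ) * z ^ d =
      if c ≤ d ∧ 2 ∣ d - c then z ^ c * ((q : ℚ) * z ^ 2) ^ ((d - c) / 2) else 0 := by
    intro d
    split_ifs with hd
    · obtain ⟨k, hk⟩ := hd.2
      have he : d = c + 2 * k := by omega
      rw [show (d - c) / 2 = k by omega, he, mul_pow, ← pow_mul, pow_add]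
      push_cast
      ring
    · simp
  simp only [hterm, ← Finset.sum_filter]
  refine le_trans (le_trans (le_of_eq ?_) (Finset.sum_le_sum_of_subset_of_nonneg
    (t := range (D + 1)) (f := fun k => z ^ c * ((q : ℚ) * z ^ 2) ^ k)
    (s := ((range (D + 1)).filter fun d => c ≤ d ∧ 2 ∣ d - c).image fun d => (d - c) / 2) ?_
      fun k _ _ => by positivity)) ?_
  · rw [Finset.sum_image]
    intro a ha b hb e
    dsimp only at e
    simp only [Finset.mem_coe, Finset.mem_filter] at ha hb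
    obtain ⟨-, h1, k, hk⟩ := ha
    obtain ⟨-, h2, l, hl⟩ := hb
    omega
  · intro k hk
    simp only [Finset.mem_image, Finset.mem_filter, Finset.mem_range] at hk ⊢
    obtain ⟨d, ⟨hd, -⟩, rfl⟩ := hk
    omega
  · rw [← Finset.mul_sum]
    exact mul_le_mul_of_nonneg_left (geom_le (by positivity) h _) (pow_nonneg hz _)

theorem lay_le {q : ℕ} {s : ℚ} (hs : 0 ≤ s) {j : ℕ} (h : (q : ℚ) * s ^ j < 1) (D : ℕ) :
    ∑ d ∈ range (D + 1), (lay q j d : ℚ) * (s ^ wt j) ^ d ≤ fac q s j := by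
  unfold lay wt fac
  split_ifs with hj
  · refine le_trans (le_of_eq (Finset.sum_congr rfl fun d _ => ?_)) (geom_le (x := (q : ℚ) * s ^ j) (by positivity) h _)
    rw [mul_pow]
    push_cast
    ring
  · have e : (s ^ (j / 2)) ^ 2 = s ^ j := by rw [← pow_mul]; congr 1; omega
    simp only [psi, Nat.cast_sum, Finset.sum_mul]
    rw [Finset.sum_comm]
    refine le_trans (Finset.sum_le_sum fun b _ => shifted_le (pow_nonneg hs _) (by rw [e]; exact h) (cnt b.1 + cnt b.2) D) (le_of_eq ?_)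
    rw [← Finset.sum_mul, e, div_eq_mul_one_div ((1 + s ^ (j / 2)) ^ 4)]
    congr 1
    simp only [Fintype.sum_prod_type, Fintype.sum_bool, cnt, Bool.toNat_true, Bool.toNat_false]
    ring

/-- The truncated Euler product. -/
def eul (q : ℕ) (s : ℚ) (J : ℕ) : ℚ := ∏ i ∈ range J, fac q s (i + 2)

attribute [local irreducible] wt lay in
theorem weighted_le {q : ℕ} {s : ℚ} (hs : 0 ≤ s) (h : ∀ j, 2 ≤ j → (q : ℚ) * s ^ j < 1) :
    ∀ J N, ∑ m ∈ range (N + 1), (cS q J m : ℚ) * s ^ m ≤ eul q s J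
  | 0, N => by
    rw [Finset.sum_eq_single 0 (fun m _ hm => by simp [cS, hm]) (by simp)]
    simp [cS, eul]
  | J + 1, N => by
    have hj := h (J + 2) (by omega)
    have hw := wt_pos (show 2 ≤ J + 2 by omega)
    rw [show eul q s (J + 1) = eul q s J * fac q s (J + 2) from Finset.prod_range_succ _ _, mul_comm]
    refine le_trans ?_ (mul_le_mul (lay_le hs hj N) (weighted_le hs h J N)
      (Finset.sum_nonneg fun m _ => by positivity) (zero_le_one.trans (one_le_fac hs hj)))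
    rw [Finset.sum_mul_sum, ← Finset.sum_product']
    simp only [cS, Nat.cast_sum, Finset.sum_mul, Nat.cast_mul]
    rw [Finset.sum_sigma']
    refine le_trans (le_of_eq ?_) (Finset.sum_le_sum_of_subset_of_nonneg
      (s := (((range (N + 1)).sigma fun m => range (m / wt (J + 2) + 1)).image
        fun x => (x.2, x.1 - wt (J + 2) * x.2))) ?_ fun x _ _ => by positivity)
    · rw [Finset.sum_image]
      · refine Finset.sum_congr rfl fun x hx => ?_
        obtain ⟨m, d⟩ := x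
        simp only [Finset.mem_sigma, Finset.mem_range] at hx ⊢
        have hle : wt (J + 2) * d ≤ m :=
          le_trans (Nat.mul_le_mul_left _ (by omega)) (Nat.mul_div_le m (wt (J + 2)))
        conv_lhs => rw [← Nat.add_sub_of_le hle, pow_add, pow_mul]
        simp only [Nat.add_sub_of_le hle]
        ring
      · rintro ⟨m, d⟩ hx ⟨m', d'⟩ hx' e
        simp only [Finset.mem_coe, Finset.mem_sigma, Finset.mem_range] at hx hx'
        simp only [Prod.mk.injEq] at e
        obtain ⟨rfl, e⟩ := e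
        have h1 : wt (J + 2) * d ≤ m := le_trans (Nat.mul_le_mul_left _ (by omega)) (Nat.mul_div_le m _)
        have h2 : wt (J + 2) * d ≤ m' := le_trans (Nat.mul_le_mul_left _ (by omega)) (Nat.mul_div_le m' _)
        obtain rfl : m = m' := by omega
        rfl
    · intro x hx
      simp only [Finset.mem_image, Finset.mem_sigma, Finset.mem_range] at hx
      obtain ⟨⟨m, d⟩, ⟨hm, hd⟩, rfl⟩ := hx
      dsimp only at hm hd
      simp only [Finset.mem_product, Finset.mem_range]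
      have h2 := Nat.div_le_self m (wt (J + 2))
      exact ⟨by omega, by omega⟩

theorem lt_one_inv {q : ℕ} (hq : 2 ≤ q) {j : ℕ} (hj : 2 ≤ j) : (q : ℚ) * ((q : ℚ)⁻¹) ^ j < 1 := by
  have hq' : (1 : ℚ) < q := by exact_mod_cast (show 1 < q by omega)
  obtain ⟨k, rfl⟩ : ∃ k, j = k + 1 := ⟨j - 1, by omega⟩
  rw [pow_succ', ← mul_assoc, mul_inv_cancel₀ (by linarith), one_mul]
  exact pow_lt_one₀ (by positivity) (inv_lt_one_of_one_lt₀ hq') (by omega)

theorem eul_mono {q : ℕ} (hq : 3 ≤ q) (J : ℕ) :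
    eul q ((q : ℚ)⁻¹) J ≤ eul 3 (((3 : ℕ) : ℚ)⁻¹) J := by
  refine Finset.prod_le_prod (fun i _ => zero_le_one.trans (one_le_fac (by positivity) (lt_one_inv (by omega) (by omega)))) fun i _ => ?_
  have hq3 : ((q : ℚ))⁻¹ ≤ (((3 : ℕ) : ℚ))⁻¹ := inv_anti₀ (by norm_num) (by exact_mod_cast hq)
  have hden : (q : ℚ) * ((q : ℚ)⁻¹) ^ (i + 2) ≤ ((3 : ℕ) : ℚ) * (((3 : ℕ) : ℚ)⁻¹) ^ (i + 2) := by
    have hq0 : (q : ℚ) ≠ 0 := by exact_mod_cast (show q ≠ 0 by omega)
    rw [pow_succ' _ (i + 1), ← mul_assoc, mul_inv_cancel₀ hq0, one_mul, pow_succ' _ (i + 1), ← mul_assoc,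
      mul_inv_cancel₀ (by norm_num), one_mul]
    exact pow_le_pow_left₀ (by positivity) hq3 _
  have hpos : ((3 : ℕ) : ℚ) * (((3 : ℕ) : ℚ)⁻¹) ^ (i + 2) < 1 := lt_one_inv (by omega) (by omega)
  refine div_le_div₀ ?_ ?_ (by linarith) (by linarith)
  · split_ifs <;> positivity
  · split_ifs
    · exact le_rfl
    · exact pow_le_pow_left₀ (by positivity) (add_le_add le_rfl (pow_le_pow_left₀ (by positivity) hq3 _)) 4

theorem pair_le (x : ℚ) (h0 : 0 ≤ x) (h1 : x ≤ 1 / 1000) :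
    (1 + x) ^ 4 / (1 - 3 * x ^ 2) * (1 / (1 - x ^ 2)) * (1 + 8 * (x / 3)) ≤ 1 + 8 * x := by
  have hx2 : x ^ 2 ≤ x / 1000 := by rw [sq]; nlinarith
  have ha : (0 : ℚ) < 1 - 3 * x ^ 2 := by linarith
  have hb : (0 : ℚ) < 1 - x ^ 2 := by linarith
  rw [div_mul_div_comm, mul_one, div_mul_eq_mul_div, div_le_iff₀ (mul_pos ha hb)]
  nlinarith [pow_nonneg h0 3, pow_nonneg h0 4, pow_nonneg h0 5, mul_le_mul_of_nonneg_left h1 (pow_nonneg h0 2),
    mul_le_mul_of_nonneg_left h1 (pow_nonneg h0 3), mul_le_mul_of_nonneg_left h1 h0,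
    mul_le_mul_of_nonneg_left h1 (pow_nonneg h0 4)]

theorem eul_three_le (J : ℕ) : eul 3 (((3 : ℕ) : ℚ)⁻¹) J ≤ 54 / 5 := by
  set s : ℚ := (((3 : ℕ) : ℚ))⁻¹ with hs
  have h1 : ∀ j, 2 ≤ j → 1 ≤ fac 3 s j := fun j hj => one_le_fac (by norm_num [hs]) (lt_one_inv (by omega) hj)
  have hnn : ∀ J, 0 ≤ eul 3 s J := fun J => Finset.prod_nonneg fun i _ => zero_le_one.trans (h1 _ (by omega))
  have hmono : Monotone (eul 3 s) := monotone_nat_of_le_succ fun k => by
    rw [show eul 3 s (k + 1) = eul 3 s k * _ from Finset.prod_range_succ _ _]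
    exact le_mul_of_one_le_right (hnn _) (h1 _ (by omega))
  have key : ∀ k, eul 3 s (2 * (10 + k)) * (1 + 8 * s ^ (10 + k + 1)) ≤ 54 / 5 := by
    intro k
    induction k with
    | zero => norm_num [hs, eul, fac, Finset.prod_range_succ]
    | succ k ih =>
      rw [show 2 * (10 + (k + 1)) = 2 * (10 + k) + 1 + 1 by ring, eul, Finset.prod_range_succ,
        Finset.prod_range_succ, mul_assoc, mul_assoc]
      refine le_trans (mul_le_mul_of_nonneg_left ?_ (hnn _)) ih
      rw [← mul_assoc]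
      set x := s ^ (10 + k + 1) with hx
      have e1 : fac 3 s (2 * (10 + k) + 2) = (1 + x) ^ 4 / (1 - 3 * x ^ 2) := by
        rw [fac, if_neg (by omega), show (2 * (10 + k) + 2) / 2 = 10 + k + 1 by omega,
          show 2 * (10 + k) + 2 = (10 + k + 1) * 2 by ring, pow_mul, ← hx]
        norm_num
      have e2 : fac 3 s (2 * (10 + k) + 1 + 2) = 1 / (1 - x ^ 2) := by
        rw [fac, if_pos (by omega), show 2 * (10 + k) + 1 + 2 = (10 + k + 1) * 2 + 1 by ring, pow_succ', pow_mul, ← hx,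
          ← mul_assoc]
        norm_num [hs]
      have e3 : s ^ (10 + (k + 1) + 1) = x / 3 := by
        rw [show 10 + (k + 1) + 1 = (10 + k + 1) + 1 by ring, pow_succ, ← hx]
        norm_num [hs]
        ring
      rw [e1, e2, e3]
      refine pair_le x (by positivity) ?_
      refine (pow_le_pow_of_le_one (by norm_num [hs]) (by norm_num [hs]) (show 10 ≤ 10 + k + 1 by omega)).trans ?_
      norm_num [hs]
  refine le_trans (hmono (show J ≤ 2 * (10 + J) by omega)) (le_trans ?_ (key J))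
  exact le_mul_of_one_le_right (hnn _) (le_add_of_nonneg_right (by positivity))

theorem final_bound {q : ℕ} (hq : 3 ≤ q) (n J : ℕ) :
    5 * ∑ m ∈ range (n + 1), cS q J m * q ^ (n - m) ≤ 54 * q ^ n := by
  have hq0 : (q : ℚ) ≠ 0 := by exact_mod_cast (show q ≠ 0 by omega)
  have h := ((weighted_le (q := q) (s := (q : ℚ)⁻¹) (by positivity) (fun j hj => lt_one_inv (by omega) hj) J n).trans
    (eul_mono hq J)).trans (eul_three_le J)
  have key : (5 : ℚ) * ∑ m ∈ range (n + 1), (cS q J m : ℚ) * (q : ℚ) ^ (n - m) ≤ 54 * (q : ℚ) ^ n := by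
    refine le_trans (le_of_eq ?_) (le_trans (mul_le_mul_of_nonneg_left
      (mul_le_mul_of_nonneg_right h (pow_nonneg (by positivity : (0 : ℚ) ≤ q) n)) (by norm_num : (0 : ℚ) ≤ 5)) (le_of_eq (by ring)))
    rw [Finset.sum_mul]
    congr 1
    refine Finset.sum_congr rfl fun m hm => ?_
    rw [pow_sub₀ _ hq0 (Nat.le_of_lt_succ (Finset.mem_range.1 hm)), inv_pow]
    ring
  exact_mod_cast key

end Cfsg.Agent.SpClassCount
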