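import Cfsg.Agent.OrderBound.SelfDual

/-! Counting palindromic polynomials (owner: helper23). -/

set_option autoImplicit false
set_option linter.unusedSectionVars false
set_option linter.style.haveILetI false

namespace Cfsg.Agent.SpClassCount

open Polynomial

variable {F : Type*} [Field F]

/-- A monic polynomial of non-zero constant term equal to its monic reciprocal. -/
structure SelfRec (f : F[X]) : Prop where
  monic : f.Monic
  coeff0 : f.coeff 0 ≠ 0
  rv_eq : OrderBound.rv f = f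

/-- Palindromic polynomials of degree `2 * e`. -/
abbrev Pal (F : Type*) [Field F] (e : ℕ) : Type _ :=
  {f : F[X] // f.Monic ∧ f.natDegree = 2 * e ∧ f.reverse = f}

theorem pal_coeff {e : ℕ} (f : Pal F e) {i : ℕ} (hi : i ≤ 2 * e) :
    f.1.coeff i = f.1.coeff (2 * e - i) := by
  conv_lhs => rw [← f.2.2.2]
  rw [coeff_reverse, f.2.2.1, revAt_le hi]

theorem card_pal [Fintype F] (e : ℕ) : Finite (Pal F e) ∧ Nat.card (Pal F e) ≤ Fintype.card F ^ e := by
  have hinj : Function.Injective fun (f : Pal F e) (i : Fin e) => f.1.coeff ((i : ℕ) + 1) := by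
    intro f g h
    have h0 : ∀ f : Pal F e, f.1.coeff 0 = 1 := fun f => by
      have h := f.2.1.coeff_natDegree
      rw [f.2.2.1] at h
      rw [pal_coeff f (Nat.zero_le _), Nat.sub_zero, h]
    have hlow : ∀ i ≤ e, f.1.coeff i = g.1.coeff i := by
      intro i hi
      rcases i with _ | j
      · rw [h0, h0]
      · exact congrFun h ⟨j, by omega⟩
    refine Subtype.ext (Polynomial.ext fun i => ?_)
    rcases lt_or_ge (2 * e) i with hi | hi
    · rw [coeff_eq_zero_of_natDegree_lt (f.2.2.1.trans_lt hi),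
        coeff_eq_zero_of_natDegree_lt (g.2.2.1.trans_lt hi)]
    rcases le_or_gt i e with hie | hie
    · exact hlow i hie
    · rw [pal_coeff f hi, pal_coeff g hi]
      exact hlow _ (by omega)
  refine ⟨Finite.of_injective _ hinj, (Nat.card_le_card_of_injective _ hinj).trans ?_⟩
  rw [Nat.card_fun, Nat.card_fin, Nat.card_eq_fintype_card]

theorem selfRec_X_sub (s : F) (hs : s * s = 1) : SelfRec (X - C s) := by
  have hs0 : s ≠ 0 := left_ne_zero_of_mul_eq_one hs
  have hm : (X - C s).Monic := monic_X_sub_C s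
  have h0 : (X - C s).coeff 0 ≠ 0 := by simp [hs0]
  refine ⟨hm, h0, eq_of_monic_of_associated (OrderBound.rv_monic hm.ne_zero) hm ?_⟩
  have hrev : (X - C s).reverse = C (-s) * (X - C s) := by
    have hr : (X - C s).reverse = reflect 1 (X - C s) := by rw [reverse, natDegree_X_sub_C]
    rw [hr]
    ext (_ | _ | k)
    · rw [coeff_reflect, revAt_le (Nat.zero_le _), coeff_C_mul]
      simp [hs]
    · rw [coeff_reflect, revAt_le le_rfl, coeff_C_mul]
      simp
    · rw [coeff_reflect, revAt_eq_self_of_lt (by omega), coeff_C_mul]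
      simp [coeff_X]
  rw [OrderBound.rv, hrev]
  refine (associated_mul_unit_left _ _ (isUnit_C.2 (inv_ne_zero ?_).isUnit)).trans
    (associated_unit_mul_left _ _ (isUnit_C.2 (neg_ne_zero.2 hs0).isUnit))
  rw [leadingCoeff_mul, leadingCoeff_C, (monic_X_sub_C s).leadingCoeff, mul_one]
  exact neg_ne_zero.2 hs0

theorem SelfRec.reverse_eq {f : F[X]} (h : SelfRec f) : f.reverse = C (f.coeff 0) * f := by
  have e := h.rv_eq
  rw [OrderBound.rv, OrderBound.leadingCoeff_reverse_eq h.coeff0] at e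
  calc f.reverse = C (f.coeff 0) * (f.reverse * C (f.coeff 0)⁻¹) := by
        rw [mul_left_comm, ← C_mul, mul_inv_cancel₀ h.coeff0, C_1, mul_one]
    _ = C (f.coeff 0) * f := by rw [e]

theorem reverse_sq {s : F} (hs : s * s = 1) (k : ℕ) : ((X - C s) ^ (2 * k)).reverse = (X - C s) ^ (2 * k) := by
  have h2' : ((X - C s) * (X - C s)).reverse = (X - C s) * (X - C s) := by
    rw [reverse_mul_of_domain, (selfRec_X_sub s hs).reverse_eq, mul_mul_mul_comm, ← C_mul]
    simp [hs]
  rw [pow_mul, sq]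
  induction k with
  | zero => rw [pow_zero, ← C_1, reverse_C]
  | succ k ih => rw [pow_succ, reverse_mul_of_domain, ih, h2']

/-- Splitting off the roots `1` and `-1`. -/
theorem exists_split (h2 : (2 : F) ≠ 0) {f : F[X]} (hf : SelfRec f) : ∃ (a b e : ℕ) (f₀ : Pal F e),
    f = (X - C 1) ^ a * (X - C (-1)) ^ b * f₀.1 ∧ ¬ f₀.1.IsRoot 1 ∧ ¬ f₀.1.IsRoot (-1) ∧
    f.natDegree = a + b + 2 * e := by
  have hne : (1 : F) ≠ -1 := fun h => h2 (by linear_combination h)
  obtain ⟨g, hg, hg1⟩ := exists_eq_pow_rootMultiplicity_mul_and_not_dvd f hf.monic.ne_zero 1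
  set a := f.rootMultiplicity 1
  have hgne : g ≠ 0 := fun h => hf.monic.ne_zero (by rw [hg, h, mul_zero])
  obtain ⟨f₀, hf₀, hf1⟩ := exists_eq_pow_rootMultiplicity_mul_and_not_dvd g hgne (-1)
  set b := g.rootMultiplicity (-1)
  have hfe : f = (X - C 1) ^ a * (X - C (-1)) ^ b * f₀ := by rw [mul_assoc, ← hf₀, ← hg]
  have hm : f₀.Monic := by
    have := hf.monic
    rw [hfe] at this
    exact (((monic_X_sub_C 1).pow a).mul ((monic_X_sub_C (-1)).pow b)).of_mul_monic_left this
  have hpow : ∀ (s : F) (k : ℕ), s * s = 1 → OrderBound.rv ((X - C s) ^ k) = (X - C s) ^ k := by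
    intro s k hs
    induction k with
    | zero => rw [pow_zero, OrderBound.rv_one]
    | succ k ih => rw [pow_succ, OrderBound.rv_mul, ih, (selfRec_X_sub s hs).rv_eq]
  have hc0 : f₀.coeff 0 ≠ 0 := fun h => hf.coeff0 (by rw [hfe, mul_coeff_zero, h, mul_zero])
  have hrv : OrderBound.rv f₀ = f₀ := by
    have h := hf.rv_eq
    rw [hfe, OrderBound.rv_mul, OrderBound.rv_mul, hpow 1 a (one_mul 1), hpow (-1) b (by ring)] at h
    exact mul_left_cancel₀ (((monic_X_sub_C 1).pow a).mul ((monic_X_sub_C (-1)).pow b)).ne_zero h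
  have hn1 : ¬ f₀.IsRoot 1 := fun h => hg1 (by rw [hf₀]; exact dvd_mul_of_dvd_right (dvd_iff_isRoot.2 h) _)
  have hn2 : ¬ f₀.IsRoot (-1) := fun h => hf1 (dvd_iff_isRoot.2 h)
  set d := f₀.natDegree with hd
  have hrev : f₀.reverse = C (f₀.coeff 0) * f₀ := SelfRec.reverse_eq ⟨hm, hc0, hrv⟩
  have heval : ∀ s : F, s * s = 1 → f₀.coeff 0 * f₀.eval s * s ^ d = f₀.eval s := by
    intro s hs
    haveI : Invertible s := invertibleOfNonzero (left_ne_zero_of_mul_eq_one hs)
    have h := eval₂_reverse_mul_pow (RingHom.id F) s f₀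
    rw [invOf_eq_inv, inv_eq_of_mul_eq_one_right hs, ← hd, hrev] at h
    simpa [eval₂_eq_eval_map] using h
  have hc : f₀.coeff 0 = 1 := by
    have h := heval 1 (one_mul 1)
    rw [one_pow, mul_one] at h
    exact (mul_eq_right₀ hn1).1 h
  have heven : Even d := by
    have h := heval (-1) (by ring)
    rw [hc, one_mul] at h
    by_contra hno
    rw [(Nat.not_even_iff_odd.1 hno).neg_one_pow, mul_neg_one] at h
    have : (2 : F) * f₀.eval (-1) = 0 := by linear_combination -h
    exact hn2 ((mul_eq_zero.1 this).resolve_left h2)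
  obtain ⟨e, he⟩ := heven
  refine ⟨a, b, e, ⟨f₀, hm, by omega, by rw [hrev, hc, C_1, one_mul]⟩, hfe, hn1, hn2, ?_⟩
  rw [hfe, natDegree_mul (((monic_X_sub_C 1).pow a).mul ((monic_X_sub_C (-1)).pow b)).ne_zero hm.ne_zero,
    ((monic_X_sub_C 1).pow a).natDegree_mul ((monic_X_sub_C (-1)).pow b), natDegree_pow, natDegree_pow,
    natDegree_X_sub_C, natDegree_X_sub_C, ← hd]
  omega

theorem mult_eq (h2 : (2 : F) ≠ 0) {f₀ : F[X]} (h0 : f₀ ≠ 0) (h1 : ¬ f₀.IsRoot 1) (h1' : ¬ f₀.IsRoot (-1))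
    (a b : ℕ) :
    ((X - C 1) ^ a * (X - C (-1)) ^ b * f₀).rootMultiplicity 1 = a ∧
      ((X - C 1) ^ a * (X - C (-1)) ^ b * f₀).rootMultiplicity (-1) = b := by
  have hA : (X - C (1 : F)) ^ a ≠ 0 := pow_ne_zero _ (X_sub_C_ne_zero _)
  have hB : (X - C (-1 : F)) ^ b ≠ 0 := pow_ne_zero _ (X_sub_C_ne_zero _)
  have hne : (1 : F) ≠ -1 := fun h => h2 (by linear_combination h)
  have hr : ∀ {s t : F} (k : ℕ), s ≠ t → ((X - C t) ^ k).rootMultiplicity s = 0 := fun {s t} k h => by
    refine rootMultiplicity_eq_zero ?_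
    rw [IsRoot, eval_pow, eval_sub, eval_X, eval_C]
    exact pow_ne_zero _ (sub_ne_zero.2 h)
  rw [rootMultiplicity_mul (mul_ne_zero (mul_ne_zero hA hB) h0), rootMultiplicity_mul (mul_ne_zero hA hB),
    rootMultiplicity_mul (mul_ne_zero (mul_ne_zero hA hB) h0), rootMultiplicity_mul (mul_ne_zero hA hB)]
  rw [rootMultiplicity_X_sub_C_pow, rootMultiplicity_X_sub_C_pow, hr b hne, hr a hne.symm,
    rootMultiplicity_eq_zero h1, rootMultiplicity_eq_zero h1']
  omega

/-- The data of an odd layer. -/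
abbrev OddObj (F : Type*) [Field F] (e : ℕ) : Type _ :=
  {f : F[X] // SelfRec f ∧ Even (f.rootMultiplicity 1) ∧ Even (f.rootMultiplicity (-1)) ∧ f.natDegree = 2 * e}

theorem odd_pal (h2 : (2 : F) ≠ 0) {e : ℕ} (x : OddObj F e) : x.1.reverse = x.1 := by
  obtain ⟨f, hf, h1, h1', hd⟩ := x
  obtain ⟨a, b, e₀, ⟨f₀, hm, hd₀, hr₀⟩, hfe, hn, hn', -⟩ := exists_split h2 hf
  obtain ⟨ha, hb⟩ := mult_eq h2 hm.ne_zero hn hn' a b
  rw [← hfe] at ha hb
  rw [ha] at h1
  rw [hb] at h1'
  obtain ⟨a', rfl⟩ := h1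
  obtain ⟨b', rfl⟩ := h1'
  show f.reverse = f
  rw [hfe, ← two_mul, ← two_mul, reverse_mul_of_domain, reverse_mul_of_domain, reverse_sq (one_mul 1),
    reverse_sq (show (-1 : F) * -1 = 1 by ring)]
  exact congrArg _ hr₀

theorem card_oddObj [Fintype F] (h2 : (2 : F) ≠ 0) (e : ℕ) :
    Finite (OddObj F e) ∧ Nat.card (OddObj F e) ≤ Fintype.card F ^ e := by
  obtain ⟨hfin, hle⟩ := card_pal (F := F) e
  have hinj : Function.Injective fun x : OddObj F e => (⟨x.1, x.2.1.monic, x.2.2.2.2, odd_pal h2 x⟩ : Pal F e) :=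
    fun x y h => Subtype.ext (congrArg (fun t : Pal F e => t.1) h)
  exact ⟨Finite.of_injective _ hinj, (Nat.card_le_card_of_injective _ hinj).trans hle⟩

/-- Four bits. -/
abbrev B4 := (Bool × Bool) × (Bool × Bool)

/-- The number of bits set in a pair. -/
def cnt (p : Bool × Bool) : ℕ := p.1.toNat + p.2.toNat

/-- The code of a multiplicity with a sign. -/
def code (a : ℕ) (σ : Bool) : Bool × Bool :=
  if a % 2 = 1 then (σ, !σ) else if σ = true ∨ a = 0 then (false, false) else (true, true)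

theorem code_spec {a : ℕ} {σ : Bool} (h : σ = true → 0 < a) :
    ∃ a', a = cnt (code a σ) + 2 * a' := by
  refine ⟨(a - cnt (code a σ)) / 2, ?_⟩
  cases σ <;> simp only [code] <;> split_ifs <;> simp_all [cnt] <;> omega

theorem code_inj {a b : ℕ} {σ τ : Bool} (ha : σ = true → 0 < a) (hb : τ = true → 0 < b)
    (h : code a σ = code b τ) (he : a = b) : σ = τ := by
  subst he
  cases σ <;> cases τ <;> simp [code] at h ⊢ <;> split_ifs at h <;> simp_all

/-- The number of choices for an even layer. -/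
def psi (q d : ℕ) : ℕ :=
  ∑ b : B4, if cnt b.1 + cnt b.2 ≤ d ∧ 2 ∣ d - (cnt b.1 + cnt b.2) then q ^ ((d - (cnt b.1 + cnt b.2)) / 2) else 0

/-- The data of an even layer. -/
abbrev EvenObj (F : Type*) [Field F] (d : ℕ) : Type _ :=
  {x : F[X] × Bool × Bool // SelfRec x.1 ∧ x.1.natDegree = d ∧
    (x.2.1 = true → x.1.IsRoot 1) ∧ (x.2.2 = true → x.1.IsRoot (-1))}

theorem card_evenObj [Fintype F] (h2 : (2 : F) ≠ 0) (d : ℕ) :
    Finite (EvenObj F d) ∧ Nat.card (EvenObj F d) ≤ psi (Fintype.card F) d := by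
  classical
  let T := Σ b : B4, {g : Pal F ((d - (cnt b.1 + cnt b.2)) / 2) // cnt b.1 + cnt b.2 ≤ d ∧ 2 ∣ d - (cnt b.1 + cnt b.2)}
  haveI : ∀ e, Finite (Pal F e) := fun e => (card_pal e).1
  haveI : Finite T := inferInstance
  choose a b e f₀ hfe hn hn' hdeg using fun x : EvenObj F d => exists_split h2 x.2.1
  have hmult : ∀ x, x.1.1.rootMultiplicity 1 = a x ∧ x.1.1.rootMultiplicity (-1) = b x := fun x => by
    rw [hfe x]; exact mult_eq h2 (f₀ x).2.1.ne_zero (hn x) (hn' x) _ _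
  have hpos : ∀ x, (x.1.2.1 = true → 0 < a x) ∧ (x.1.2.2 = true → 0 < b x) := fun x =>
    ⟨fun h => (hmult x).1 ▸ (rootMultiplicity_pos x.2.1.monic.ne_zero).2 (x.2.2.2.1 h),
      fun h => (hmult x).2 ▸ (rootMultiplicity_pos x.2.1.monic.ne_zero).2 (x.2.2.2.2 h)⟩
  choose a' ha' using fun x => code_spec (hpos x).1
  choose b' hb' using fun x => code_spec (hpos x).2
  have hd : ∀ x : EvenObj F d, d = a x + b x + 2 * e x := fun x => x.2.2.1.symm.trans (hdeg x)
  let g : EvenObj F d → F[X] := fun x => (X - C 1) ^ (2 * a' x) * (X - C (-1)) ^ (2 * b' x) * (f₀ x).1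
  let Φ : EvenObj F d → T := fun x => ⟨(code (a x) x.1.2.1, code (b x) x.1.2.2),
    ⟨g x, ((((monic_X_sub_C (1 : F)).pow _).mul ((monic_X_sub_C (-1)).pow _)).mul (f₀ x).2.1),
      by
        have := hd x; have := ha' x; have := hb' x
        rw [(((monic_X_sub_C (1 : F)).pow _).mul ((monic_X_sub_C (-1)).pow _)).natDegree_mul (f₀ x).2.1,
          ((monic_X_sub_C (1 : F)).pow _).natDegree_mul ((monic_X_sub_C (-1)).pow _), natDegree_pow, natDegree_pow,
          natDegree_X_sub_C, natDegree_X_sub_C, (f₀ x).2.2.1]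
        dsimp only
        omega,
      by rw [reverse_mul_of_domain, reverse_mul_of_domain, reverse_sq (one_mul 1), reverse_sq (show (-1 : F) * -1 = 1 by ring), (f₀ x).2.2.2]⟩,
    by
      have := hd x; have := ha' x; have := hb' x
      dsimp only
      omega⟩
  have hinj : Function.Injective Φ := by
    intro x y h
    have hc : (code (a x) x.1.2.1, code (b x) x.1.2.2) = (code (a y) y.1.2.1, code (b y) y.1.2.2) :=
      congrArg Sigma.fst h
    have hg : g x = g y := congrArg (fun t : T => t.2.1.1) h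
    have m1 := mult_eq h2 (f₀ x).2.1.ne_zero (hn x) (hn' x) (2 * a' x) (2 * b' x)
    have m2 := mult_eq h2 (f₀ y).2.1.ne_zero (hn y) (hn' y) (2 * a' y) (2 * b' y)
    change (g x).rootMultiplicity 1 = _ ∧ (g x).rootMultiplicity (-1) = _ at m1
    change (g y).rootMultiplicity 1 = _ ∧ (g y).rootMultiplicity (-1) = _ at m2
    rw [hg] at m1
    have e1 : a' x = a' y := by have := m1.1.symm.trans m2.1; omega
    have e2 : b' x = b' y := by have := m1.2.symm.trans m2.2; omega
    have ea : a x = a y := by rw [ha' x, ha' y, e1, (Prod.mk.inj hc).1]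
    have eb : b x = b y := by rw [hb' x, hb' y, e2, (Prod.mk.inj hc).2]
    have e0 : (f₀ x).1 = (f₀ y).1 := by
      simp only [g, e1, e2] at hg
      exact mul_left_cancel₀ (mul_ne_zero (pow_ne_zero _ (X_sub_C_ne_zero _)) (pow_ne_zero _ (X_sub_C_ne_zero _))) hg
    have ef : x.1.1 = y.1.1 := by rw [hfe x, hfe y, e0, ea, eb]
    exact Subtype.ext (Prod.ext ef (Prod.ext (code_inj (hpos x).1 (ea ▸ (hpos y).1) ((Prod.mk.inj hc).1.trans (by rw [ea])) rfl)
      (code_inj (hpos x).2 (eb ▸ (hpos y).2) ((Prod.mk.inj hc).2.trans (by rw [eb])) rfl)))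
  refine ⟨Finite.of_injective _ hinj, (Nat.card_le_card_of_injective _ hinj).trans ?_⟩
  rw [Nat.card_sigma, psi]
  refine Finset.sum_le_sum fun b _ => ?_
  split_ifs with hb
  · exact (Nat.card_le_card_of_injective Subtype.val Subtype.val_injective).trans (card_pal _).2
  · haveI : IsEmpty {g : Pal F ((d - (cnt b.1 + cnt b.2)) / 2) // cnt b.1 + cnt b.2 ≤ d ∧ 2 ∣ d - (cnt b.1 + cnt b.2)} :=
      ⟨fun g => hb g.2⟩
    rw [Nat.card_of_isEmpty]

end Cfsg.Agent.SpClassCount
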